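import Mathlib

set_option autoImplicit false

namespace Cfsg.Agent.Lib.Helper88

/-- A group-level criterion: `S₀` is a nontrivial self-normalising 2-subgroup of `G` without proper nontrivial
subgroups closed under `G`-fusion inside `S₀`. -/
structure Crit {Γ : Type*} [Group Γ] (G S₀ : Subgroup Γ) : Prop where
  le : S₀ ≤ G
  pgroup : IsPGroup 2 S₀
  ne_bot : S₀ ≠ ⊥
  selfN : ∀ g ∈ G, (∀ s, s ∈ S₀ ↔ g * s * g⁻¹ ∈ S₀) → g ∈ S₀
  closed : ∀ X : Subgroup Γ, X ≤ S₀ → X ≠ ⊥ →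
    (∀ t ∈ X, ∀ g ∈ G, g * t * g⁻¹ ∈ S₀ → g * t * g⁻¹ ∈ X) → X = S₀

end Cfsg.Agent.Lib.Helper88
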