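import Cfsg.Agent.Lib.Helper88.HCHData

set_option autoImplicit false
set_option maxRecDepth 1000000
set_option maxHeartbeats 0

namespace Cfsg.Agent.Lib.Helper88.HCH
open TC

theorem relD_ok : relsOK nets HeP.Bs relsD = true := by decide +kernel

theorem relC_ok : relsOK nets HeP.Bs HC.rels = true := by decide +kernel

theorem commH_ok : relsOK nets HeP.Bs ((List.range 13).map fun k => [0, 2 * k, 1, 2 * k + 1]) = true := by
  decide +kernel

theorem fixS : fixOK nets 40 20 0 = true := by decide +kernel

theorem mv_ok : Nat.ble 2058 (Nat.add 42 (cnt 2058 (mv nets HeP.Bs [0]))) = true := by decide +kernel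

theorem conj_ok : chainOK (fun W => fpr nets 2058 XH (cw 0 W)) conjH 0 = true := by decide +kernel

theorem conj_len : conjH.length = 3825 := by decide +kernel

theorem conj_let : ∀ W ∈ conjH, ∀ l ∈ W, 40 ≤ l ∧ l < 80 := by decide +kernel

theorem fixU : fixOK nets 16 13 5 = true := by decide +kernel

theorem orbA : Nat.ble 1344 (cnt 2058 (orb nets (lets 16 0) [0,2,4,6,8,10,12,20,24,16,18,22] 5)) = true := by decide +kernel

theorem fixT : fixOK nets 16 16 9 = true := by decide +kernel

theorem orbU : Nat.ble 16 (cnt 2058 (orb nets (lets 16 13) [26,28,30,26,30] 9)) = true := by decide +kernel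

theorem mvz : mapsOK nets [0] 2 3 = true := by decide +kernel

theorem defs_mem : ∀ k < 20, nth [] defs k ++ [2 * k + 1] ∈ relsD := by decide +kernel

theorem defs_letR : ∀ k < 13, ∀ l ∈ nth [] defs k, 32 ≤ l ∧ l < 84 := by decide +kernel

theorem defs_letU : ∀ k, 13 ≤ k → k < 16 → ∀ l ∈ nth [] defs k, l < 26 := by decide +kernel

theorem defs_letA : ∀ k, 16 ≤ k → k < 20 → ∀ l ∈ nth [] defs k, 70 ≤ l ∧ l < 84 := by decide +kernel

end Cfsg.Agent.Lib.Helper88.HCH
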