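import Cfsg.Agent.Lib.Helper88.TCRigid
import Cfsg.Agent.Lib.Helper35.Cover

/-!
Words and homomorphisms; recognition of a non-split double cover from a homomorphism onto a simple group.
-/

set_option autoImplicit false

namespace Cfsg.Agent.Lib.Helper88.TC
open scoped commutatorElement

section
variable {Γ Δ : Type*} [Group Γ] [Group Δ]

theorem getD_map (f : Δ →* Γ) (Y : List Δ) (k : ℕ) : (Y.map f).getD k 1 = f (Y.getD k 1) := by
  rw [← map_one f, List.getD_map]

theorem lt_map (f : Δ →* Γ) (Y : List Δ) (l : ℕ) : lt (Y.map f) l = f (lt Y l) := by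
  rw [lt, lt, getD_map]
  split_ifs
  · rfl
  · rw [map_inv]

theorem ev_map (f : Δ →* Γ) (Y : List Δ) (W : List ℕ) : ev (Y.map f) W = f (ev Y W) := by
  induction W with
  | nil => exact (map_one f).symm
  | cons l r ih => rw [ev, ev, ih, lt_map, map_mul]

theorem Kd_map (f : Δ →* Γ) (Y : List Δ) (ng d : ℕ) : Kd (Y.map f) ng d = (Kd Y ng d).map f := by
  rw [Kd, Kd, MonoidHom.map_closure]
  congr 1
  ext g
  constructor
  · rintro ⟨k, h1, h2, rfl⟩
    exact ⟨_, ⟨k, h1, h2, rfl⟩, (getD_map f Y k).symm⟩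
  · rintro ⟨x, ⟨k, h1, h2, rfl⟩, rfl⟩
    exact ⟨k, h1, h2, (getD_map f Y k).symm⟩

/-- a list of elements of the range of a homomorphism can be lifted. -/
theorem exists_list (f : Δ →* Γ) (Y : List Γ) (h : ∀ g ∈ Y, g ∈ f.range) : ∃ Y' : List Δ, Y'.map f = Y := by
  induction Y with
  | nil => exact ⟨[], rfl⟩
  | cons a r ih =>
    obtain ⟨Y', hY'⟩ := ih fun g hg => h g (List.mem_cons_of_mem _ hg)
    obtain ⟨x, hx⟩ := h a List.mem_cons_self
    exact ⟨x :: Y', by rw [List.map_cons, hx, hY']⟩

/-- the first `n` entries. -/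
def firstN (Y : List Γ) (n : ℕ) : List Γ := (List.range n).map fun k => Y.getD k 1

theorem firstN_getD (Y : List Γ) {n k : ℕ} (h : k < n) : (firstN Y n).getD k 1 = Y.getD k 1 := by
  rw [firstN, List.getD_eq_getElem _ _ (by simpa using h)]
  simp

theorem firstN_mem (Y : List Γ) {n : ℕ} {g : Γ} (h : g ∈ firstN Y n) : ∃ k < n, g = Y.getD k 1 := by
  rw [firstN, List.mem_map] at h
  obtain ⟨k, hk, rfl⟩ := h
  exact ⟨k, List.mem_range.1 hk, rfl⟩

theorem lt_firstN (Y : List Γ) {n l : ℕ} (h : l < 2 * n) : lt (firstN Y n) l = lt Y l := by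
  rw [lt, lt, firstN_getD Y (by omega)]

theorem ev_firstN (Y : List Γ) {n : ℕ} (W : List ℕ) (h : ∀ l ∈ W, l < 2 * n) : ev (firstN Y n) W = ev Y W := by
  induction W with
  | nil => rfl
  | cons l r ih =>
    rw [ev, ev, ih fun l' hl' => h l' (List.mem_cons_of_mem _ hl'), lt_firstN Y (h l List.mem_cons_self)]

theorem Kd_firstN (Y : List Γ) (n d : ℕ) : Kd (firstN Y n) n d = Kd Y n d := by
  rw [Kd, Kd]
  congr 1
  ext g
  constructor
  · rintro ⟨k, h1, h2, rfl⟩
    exact ⟨k, h1, h2, firstN_getD Y h2⟩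
  · rintro ⟨k, h1, h2, rfl⟩
    exact ⟨k, h1, h2, (firstN_getD Y h2).symm⟩

end

/-- a normal subgroup of order two is central. -/
theorem central_of_card_two {H : Type*} [Group H] (Z : Subgroup H) [Z.Normal] (h : Nat.card Z = 2) :
    Z ≤ Subgroup.center H := by
  have hf : Finite Z := Nat.finite_of_card_ne_zero (by rw [h]; norm_num)
  intro z hz
  rw [Subgroup.mem_center_iff]
  intro g
  by_cases h1 : z = 1
  · rw [h1, mul_one, one_mul]
  have h2 : g * z * g⁻¹ ∈ Z := Subgroup.Normal.conj_mem inferInstance z hz g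
  have h3 : g * z * g⁻¹ ≠ 1 := by
    intro e
    apply h1
    have : z = g⁻¹ * (g * z * g⁻¹) * g := by group
    rw [this, e]; group
  -- three distinct elements would be too many
  by_contra hne
  have h4 : g * z * g⁻¹ ≠ z := by
    intro e
    apply hne
    calc g * z = g * z * g⁻¹ * g := by group
      _ = z * g := by rw [e]
  have h5 : 2 < Nat.card Z := by
    letI := Fintype.ofFinite Z
    rw [Nat.card_eq_fintype_card]
    exact Fintype.two_lt_card_iff.2 ⟨⟨1, Z.one_mem⟩, ⟨z, hz⟩, ⟨g * z * g⁻¹, h2⟩,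
      fun e => h1 (congrArg Subtype.val e).symm, fun e => h3 (congrArg Subtype.val e).symm,
      fun e => h4 (congrArg Subtype.val e).symm⟩
  omega

/-- **Recognition of a non-split double cover.** -/
theorem dc_of_hom {H P F : Type*} [Group H] [Group P] [Group F] [IsSimpleGroup P]
    (hna : ∃ a b : P, a * b ≠ b * a) (π : H →* P) (hπ : Function.Surjective π) [Finite H]
    (hcard : Nat.card H = 2 * Nat.card P) (x y : H) (hxy : π ⁅x, y⁆ = 1) (hne : ⁅x, y⁆ ≠ 1) (f : F ≃* P) :
    Cfsg.IsNonsplitDoubleCover H F := by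
  have hsF : IsSimpleGroup F := f.isSimpleGroup
  have hnaF : ∃ a b : F, a * b ≠ b * a := by
    obtain ⟨a, b, hab⟩ := hna
    refine ⟨f.symm a, f.symm b, fun e => hab ?_⟩
    have := congrArg f e
    simpa using this
  have e1 : H ⧸ π.ker ≃* P := QuotientGroup.quotientKerEquivOfSurjective π hπ
  have hP : 0 < Nat.card P := by
    have : Finite P := Finite.of_surjective π hπ
    exact Nat.card_pos
  have hZ2 : Nat.card π.ker = 2 := by
    have h1 := Subgroup.card_eq_card_quotient_mul_card_subgroup π.ker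
    rw [Nat.card_congr e1.toEquiv, hcard] at h1
    have h2 : Nat.card P * 2 = Nat.card P * Nat.card π.ker := by rw [← h1]; ring
    exact (Nat.eq_of_mul_eq_mul_left hP h2).symm
  have hZc := central_of_card_two π.ker hZ2
  have hnt : Nontrivial (H ⧸ π.ker) := e1.toEquiv.nontrivial
  have hfk : Finite π.ker := inferInstance
  -- the kernel lies in the commutator subgroup
  have hker : π.ker ≤ commutator H := by
    intro z hz
    by_cases h1 : z = 1
    · rw [h1]; exact Subgroup.one_mem _
    have hc : ⁅x, y⁆ ∈ commutator H :=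
      Subgroup.commutator_mem_commutator (Subgroup.mem_top x) (Subgroup.mem_top y)
    by_contra hn
    have h4 : z ≠ ⁅x, y⁆ := fun e => hn (e ▸ hc)
    have h5 : 2 < Nat.card π.ker := by
      letI := Fintype.ofFinite π.ker
      rw [Nat.card_eq_fintype_card]
      exact Fintype.two_lt_card_iff.2 ⟨⟨1, Subgroup.one_mem _⟩, ⟨z, hz⟩, ⟨⁅x, y⁆, hxy⟩,
        fun e => h1 (congrArg Subtype.val e).symm, fun e => hne (congrArg Subtype.val e).symm,
        fun e => h4 (congrArg Subtype.val e)⟩
    omega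
  have hPperf : commutator P = ⊤ := by
    rcases IsSimpleGroup.eq_bot_or_eq_top_of_normal (commutator P) inferInstance with h1 | h1
    · exfalso
      obtain ⟨a, b, hab⟩ := hna
      have h2 : ⁅a, b⁆ ∈ commutator P := Subgroup.commutator_mem_commutator (Subgroup.mem_top a) (Subgroup.mem_top b)
      rw [h1, Subgroup.mem_bot, commutatorElement_eq_one_iff_mul_comm] at h2
      exact hab h2
    · exact h1
  have hperf : commutator H = ⊤ := by
    rw [eq_top_iff]
    intro g _
    have h1 : π g ∈ (commutator H).map π := by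
      rw [commutator_def, Subgroup.map_commutator, ← MonoidHom.range_eq_map, MonoidHom.range_eq_top.2 hπ,
        ← commutator_def, hPperf]
      trivial
    obtain ⟨c, hc, e⟩ := h1
    have h2 : c⁻¹ * g ∈ π.ker := by
      rw [MonoidHom.mem_ker, map_mul, map_inv, e, inv_mul_cancel]
    have h3 := (commutator H).mul_mem hc (hker h2)
    rwa [mul_inv_cancel_left] at h3
  exact Cfsg.Agent.Lib.Helper35.nonsplit_double_cover hnaF π.ker hZc hZ2 ((e1.symm.toMonoidHom).comp f.toMonoidHom)
    (e1.symm.surjective.comp f.surjective) hperf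

end Cfsg.Agent.Lib.Helper88.TC
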