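import Cfsg.Agent.Lib.Helper88.HCMat0
import Cfsg.Agent.Lib.Helper88.TCMap
import Cfsg.Agent.Lib.Helper6.SLCard

/-!
The centraliser of a transvection in `SL(5,2)` is isomorphic to a permutation group of degree 32 and order 21504 which is
generated by thirteen root elements; the relators `HC.rels` bound the order of every group generated by thirteen
elements which satisfy them.
-/

set_option autoImplicit false
set_option maxRecDepth 1000000

namespace Cfsg.Agent.Lib.Helper88.HC
open TC Matrix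

/-- the twenty permutations. -/
noncomputable abbrev Yp : List (Equiv.Perm (Fin 32)) := gens 32 nets

theorem rels_perm : ∀ W ∈ rels, ev Yp W = 1 := relsOK_spec nets_ok sep_ok rel_ok

theorem card_perm : Nat.card (Kd Yp 13 0) = 21504 := by
  have c0 := level_eq' nets_ok rels_perm par0 fin0 (b := ⟨2, by norm_num⟩) fix0 orb0
  have c1 := level_eq' nets_ok rels_perm par1 fin1 (b := ⟨4, by norm_num⟩) fix1 orb1
  have c2 := level_eq' nets_ok rels_perm par2 fin2 (b := ⟨8, by norm_num⟩) fix2 orb2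
  have c3 := level_eq' nets_ok rels_perm par3 fin3 (b := ⟨16, by norm_num⟩) fix3 orb3
  rw [card_Kd_self] at c3
  rw [c3] at c2
  rw [c2] at c1
  rw [c1] at c0
  rw [c0]

/-- the relators bound the order in every group. -/
theorem card_le_abs {Γ : Type*} [Group Γ] (Y : List Γ) (h : ∀ W ∈ rels, ev Y W = 1) :
    Finite (Kd Y 13 0) ∧ Nat.card (Kd Y 13 0) ≤ 21504 := by
  have f13 : Finite (Kd Y 13 13) := by rw [Kd_self]; infer_instance
  obtain ⟨f10, c3⟩ := level_le h par3 fin3
  obtain ⟨f7, c2⟩ := level_le h par2 fin2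
  obtain ⟨f4, c1⟩ := level_le h par1 fin1
  obtain ⟨f0, c0⟩ := level_le h par0 fin0
  rw [card_Kd_self] at c3
  refine ⟨f0, ?_⟩
  omega

/-- every group of order at least 21504 generated by thirteen elements satisfying the relators is isomorphic to the
permutation group. -/
theorem abs_iso {Γ : Type*} [Group Γ] (Y : List Γ) (h : ∀ W ∈ rels, ev Y W = 1)
    (hge : 21504 ≤ Nat.card (Kd Y 13 0)) : Nonempty (Kd Yp 13 0 ≃* Kd Y 13 0) := by
  have hz : ∀ W ∈ rels, ev (zipY Y Yp 13) W = 1 := by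
    intro W hW
    rw [ev_zipY _ _ W (rels_let W hW), h W hW, rels_perm W hW]
    rfl
  obtain ⟨hf, hc⟩ := card_le_abs _ hz
  have := (card_le_abs Y h).1
  exact iso_of_card Y Yp card_perm hf hc hge

/-! ### the matrices -/

abbrev SL5 := Matrix.SpecialLinearGroup (Fin 5) (ZMod 2)

abbrev V5 := Fin 5 → ZMod 2

theorem dec_bij : Function.Bijective (fun x : Fin 32 => dec x) := by
  rw [Fintype.bijective_iff_injective_and_card]
  refine ⟨fun x y e => dec_inj x y e, ?_⟩
  simp [ZMod.card]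

noncomputable def e32 : Fin 32 ≃ V5 := Equiv.ofBijective _ dec_bij

theorem e32_apply (x : Fin 32) : e32 x = dec x := rfl

noncomputable def al5 : SL5 →* Equiv.Perm (Fin 32) :=
  (e32.symm.permCongrHom.toMonoidHom.comp (MulAction.toPermHom (V5 ≃ₗ[ZMod 2] V5) V5)).comp
    Matrix.SpecialLinearGroup.toLin'

theorem al5_apply (g : SL5) (x : Fin 32) : e32 (al5 g x) = (g : Matrix (Fin 5) (Fin 5) (ZMod 2)) *ᵥ e32 x := by
  show e32 (e32.symm (Matrix.SpecialLinearGroup.toLin' g (e32 x))) = _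
  rw [Equiv.apply_symm_apply, Matrix.SpecialLinearGroup.toLin'_apply, Matrix.toLin'_apply]

theorem al5_inj : Function.Injective al5 := by
  intro g h e
  apply Matrix.SpecialLinearGroup.toLin'_injective
  apply LinearEquiv.ext
  intro v
  obtain ⟨x, rfl⟩ := e32.surjective v
  rw [Matrix.SpecialLinearGroup.toLin'_apply, Matrix.SpecialLinearGroup.toLin'_apply, Matrix.toLin'_apply,
    Matrix.toLin'_apply, ← al5_apply, ← al5_apply, e]

noncomputable def tS (p : Fin 5 × Fin 5) : SL5 :=
  if h : p.1 ≠ p.2 then (⟨transvection p.1 p.2 1, det_transvection_of_ne _ _ h _⟩ : SL5) else (1 : SL5)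

theorem tS_val {p : Fin 5 × Fin 5} (h : p.1 ≠ p.2) :
    ((tS p : SL5) : Matrix (Fin 5) (Fin 5) (ZMod 2)) = transvection p.1 p.2 1 := by
  have e : tS p = (⟨transvection p.1 p.2 1, det_transvection_of_ne _ _ h _⟩ : SL5) := dif_pos h
  rw [e]

theorem tS_zero : tS (0, 0) = 1 := dif_neg (by simp)

/-- the twenty root elements. -/
noncomputable def YM : List SL5 := rt.map tS

theorem YM_getD (k : ℕ) : YM.getD k 1 = tS (rt.getD k (0, 0)) := by
  rw [YM, ← tS_zero, List.getD_map]

theorem tv_mulVec (i j : Fin 5) (v : Fin 5 → ZMod 2) (a : Fin 5) :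
    (transvection i j (1 : ZMod 2) *ᵥ v) a = v a + (if a = i then v j else 0) := by
  rw [transvection, add_mulVec, one_mulVec, Pi.add_apply]
  congr 1
  rw [Matrix.single_mulVec]
  by_cases h : a = i
  · subst h; simp
  · simp [h, Function.update]

theorem al5_YM {k : ℕ} (hk : k < 20) : al5 (YM.getD k 1) = Yp.getD k 1 := by
  obtain ⟨h1, h2⟩ := bridge ⟨k, hk⟩
  ext x
  congr 1
  apply e32.injective
  rw [al5_apply, YM_getD, tS_val h1, e32_apply, e32_apply, gens_getD, gp_apply (nth_netOK nets_ok k)]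
  funext a
  rw [tv_mulVec]
  exact h2 x a

theorem map_YM : YM.map al5 = Yp := by
  apply List.ext_getElem
  · rw [List.length_map]
    show (rt.map tS).length = (nets.map (gp 32)).length
    rw [List.length_map, List.length_map, len_nets]
    rfl
  · intro i h1 h2
    have hi : i < 20 := by
      have : (nets.map (gp 32)).length = 20 := by rw [List.length_map, len_nets]
      exact this ▸ h2
    have := al5_YM hi
    rw [← getD_map, List.getD_eq_getElem _ _ h1, List.getD_eq_getElem _ _ h2] at this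
    exact this

end Cfsg.Agent.Lib.Helper88.HC

namespace Cfsg.Agent.Lib.Helper88.TC

theorem comm_of_rel {Γ : Type*} [Group Γ] (Y : List Γ) (k : ℕ) (h : ev Y [0, 2 * k, 1, 2 * k + 1] = 1) :
    Y.getD k 1 * Y.getD 0 1 = Y.getD 0 1 * Y.getD k 1 := by
  have e0 : lt Y 0 = Y.getD 0 1 := lt_even Y 0
  have e1 : lt Y 1 = (Y.getD 0 1)⁻¹ := lt_odd Y 0
  rw [ev, ev, ev, ev, ev, one_mul, lt_odd, lt_even, e0, e1] at h
  generalize Y.getD k 1 = g at h ⊢
  generalize Y.getD 0 1 = s at h ⊢
  have h2 : (s * g)⁻¹ * (g * s) = 1 := by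
    calc (s * g)⁻¹ * (g * s) = g⁻¹ * s⁻¹ * g * s := by group
      _ = 1 := h
  exact (inv_mul_eq_one.1 h2).symm

theorem Kd_le_cent {Γ : Type*} [Group Γ] (Y : List Γ) (ng : ℕ)
    (h : ∀ k < ng, ev Y [0, 2 * k, 1, 2 * k + 1] = 1) : Kd Y ng 0 ≤ Subgroup.centralizer {Y.getD 0 1} := by
  rw [Kd, Subgroup.closure_le]
  rintro g ⟨k, _, hk, rfl⟩
  exact Subgroup.mem_centralizer_singleton_iff.2 (comm_of_rel Y k (h k hk))

end Cfsg.Agent.Lib.Helper88.TC

namespace Cfsg.Agent.Lib.Helper88.HC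
open TC Matrix

theorem prod5 : ∏ i : Fin 5, (2 ^ 5 - 2 ^ (i : ℕ)) = 9999360 := by decide +kernel

theorem card_SL5 : Nat.card SL5 = 9999360 := by
  have h := Cfsg.Agent.Lib.Helper6.card_SL_field (F := ZMod 2) 5 (by norm_num)
  rw [ZMod.card, prod5, show (2 - 1 : ℕ) = 1 from rfl, one_mul] at h
  exact h

theorem commM : ∀ k < 13, ev YM [0, 2 * k, 1, 2 * k + 1] = 1 := by
  intro k hk
  apply al5_inj
  rw [← ev_map, map_YM, map_one]
  exact relsOK_spec nets_ok sep_ok commS_ok _ (List.mem_map.2 ⟨k, List.mem_range.2 hk, rfl⟩)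

theorem card_KdM : Nat.card (Kd YM 13 0) = 21504 := by
  rw [← card_perm, ← map_YM, Kd_map]
  exact (Nat.card_congr ((Kd YM 13 0).equivMapOfInjective al5 al5_inj).toEquiv)

theorem card_centS : Nat.card (Subgroup.centralizer {YM.getD 0 1} : Subgroup SL5) ≤ 21504 := by
  have hn : ((conjS.map (ev YM)).map fun w => w * YM.getD 0 1 * w⁻¹).Nodup := by
    rw [List.map_map]
    apply List.Nodup.of_map al5
    rw [List.map_map]
    have h := nodup_of_chain nets_ok XS (cw 0) conjS_ok
    have e : (al5 ∘ (fun w => w * YM.getD 0 1 * w⁻¹) ∘ ev YM) = fun W => ev (gens 32 nets) (cw 0 W) := by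
      funext W
      show al5 (ev YM W * YM.getD 0 1 * (ev YM W)⁻¹) = ev Yp (cw 0 W)
      rw [← map_YM, ev_map, ev_cw, show (0 : ℕ) = 2 * 0 from rfl, lt_even]
    rw [e]
    exact h
  have h := cent_bound (⊤ : Subgroup SL5) (YM.getD 0 1) (conjS.map (ev YM)) (fun _ _ => Subgroup.mem_top _) hn
  rw [inf_top_eq, List.length_map, conjS_len, Subgroup.card_top, card_SL5] at h
  omega

theorem KdM_eq : Kd YM 13 0 = Subgroup.centralizer {YM.getD 0 1} := by
  apply Subgroup.eq_of_le_of_card_ge (Kd_le_cent YM 13 commM)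
  rw [card_KdM]
  exact card_centS

/-- **The centraliser of a transvection.** -/
theorem mat_iso (s : SL5) (hs : (s : Matrix (Fin 5) (Fin 5) (ZMod 2)) = transvection 0 1 1) :
    Nonempty (↥(Subgroup.centralizer ({s} : Set SL5)) ≃* Kd Yp 13 0) := by
  have e : s = YM.getD 0 1 := by
    apply Subtype.ext
    rw [hs, YM_getD]
    exact (tS_val (p := (0, 1)) (by decide)).symm
  rw [e, ← KdM_eq, ← map_YM, Kd_map]
  exact ⟨(Kd YM 13 0).equivMapOfInjective al5 al5_inj⟩

end Cfsg.Agent.Lib.Helper88.HC
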