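import Cfsg.Agent.Lib.Helper88.Sp4Abs
import Cfsg.Agent.Lib.Helper34.F4c
import Cfsg.Agent.S0245

/-!
The symplectic group `Sp(4,4)` of matrices over a concrete field with four elements is isomorphic to the permutation
group of degree 85 of `Sp4Abs`.  Matrices are coded by natural numbers (two bits for every entry).
-/

set_option autoImplicit false

namespace Cfsg.Agent.Lib.Helper88.Sp4
open TC Cfsg.Agent.Lib.Helper34

/-- the number of a row or column. -/
def idx : Fin 2 ⊕ Fin 2 → ℕ
  | .inl i => i.val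
  | .inr i => 2 + i.val

/-- the entry of a coded matrix. -/
def en (t i j : ℕ) : F4c := F4c.ofN (t >>> (2 * (4 * i + j)))

/-- the matrix with a given code. -/
def mk (t : ℕ) : Matrix (Fin 2 ⊕ Fin 2) (Fin 2 ⊕ Fin 2) F4c := fun i j => en t (idx i) (idx j)

/-- the number with given digits in base four. -/
def codeL : List F4c → ℕ
  | [] => 0
  | a :: l => F4c.val a + 4 * codeL l

theorem ofN_val (a : F4c) : F4c.ofN (F4c.val a) = a := by
  revert a; decide

theorem val_lt (a : F4c) : F4c.val a < 4 := a.2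

theorem ofN_mod (n : ℕ) : F4c.ofN (n % 4) = F4c.ofN n := by
  unfold F4c.ofN
  congr 1
  exact Nat.mod_mod _ _

theorem codeL_digit (l : List F4c) : ∀ k, F4c.ofN (codeL l >>> (2 * k)) = l.getD k 0 := by
  induction l with
  | nil => intro k; simp [codeL]; rfl
  | cons a r ih =>
    intro k
    cases k with
    | zero =>
      simp only [codeL, Nat.mul_zero, Nat.shiftRight_zero, List.getD_cons_zero]
      rw [← ofN_mod]
      have : (F4c.val a + 4 * codeL r) % 4 = F4c.val a := by
        have := val_lt a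
        omega
      rw [this, ofN_val]
    | succ j =>
      rw [List.getD_cons_succ, ← ih j]
      congr 1
      rw [codeL, Nat.shiftRight_eq_div_pow, Nat.shiftRight_eq_div_pow, Nat.mul_add, Nat.mul_one, Nat.add_comm (2 * j) 2,
        Nat.pow_add, ← Nat.div_div_eq_div_mul]
      congr 1
      have := val_lt a
      omega

/-- an entry of the product. -/
def pe (s t i j : ℕ) : F4c :=
  en s i 0 * en t 0 j + en s i 1 * en t 1 j + (en s i 2 * en t 2 j + en s i 3 * en t 3 j)

/-- the code of the product. -/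
def mulC (s t : ℕ) : ℕ :=
  codeL [pe s t 0 0, pe s t 0 1, pe s t 0 2, pe s t 0 3, pe s t 1 0, pe s t 1 1, pe s t 1 2, pe s t 1 3,
    pe s t 2 0, pe s t 2 1, pe s t 2 2, pe s t 2 3, pe s t 3 0, pe s t 3 1, pe s t 3 2, pe s t 3 3]

theorem mk_mulC (s t : ℕ) : mk (mulC s t) = mk s * mk t := by
  ext i j
  rw [Matrix.mul_apply, Fintype.sum_sum_type, Fin.sum_univ_two, Fin.sum_univ_two]
  unfold mk mulC
  rw [en, codeL_digit]
  rcases i with i | i <;> rcases j with j | j <;> fin_cases i <;> fin_cases j <;> rfl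

theorem mk_one : mk 0x40100401 = 1 := by decide +kernel

/-- the code of the value of a word. -/
noncomputable def evC (L : List ℕ) (W : List ℕ) : ℕ :=
  List.rec 0x40100401 (fun l _ ih => frc ih fun s => mulC s (nth 0 L l)) W

theorem evC_nil (L : List ℕ) : evC L [] = 0x40100401 := rfl

theorem evC_cons (L : List ℕ) (l : ℕ) (r : List ℕ) : evC L (l :: r) = mulC (evC L r) (nth 0 L l) := by
  show frc (evC L r) (fun s => mulC s (nth 0 L l)) = _
  rw [frc_eq]

/-- the symplectic matrix with a given code. -/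
noncomputable def sg (c : ℕ) : Matrix.symplecticGroup (Fin 2) F4c :=
  open Classical in if h : mk c ∈ Matrix.symplecticGroup (Fin 2) F4c then ⟨mk c, h⟩ else 1

theorem sg_coe {c : ℕ} (h : mk c * Matrix.J (Fin 2) F4c * (mk c).transpose = Matrix.J (Fin 2) F4c) :
    ((sg c : Matrix.symplecticGroup (Fin 2) F4c) : Matrix (Fin 2 ⊕ Fin 2) (Fin 2 ⊕ Fin 2) F4c) = mk c := by
  have h' : mk c ∈ Matrix.symplecticGroup (Fin 2) F4c := SymplecticGroup.mem_iff.2 h
  rw [sg, dif_pos h']

/-- the codes of the letters. -/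
def LC : List ℕ := [0x531c0405,0x531c0405,0xacc1b5fe,0x7c61bbf8,0xf5050812,0x85250c1c,0x7213043f,0x703b043d,0x85270c03,
  0xc5370802,0x4d280403,0x4e340402,0x85270c03,0xc5370802,0x88220c03,0xc8320802,0x8a290c03,0xca390802,0x4c100401,
  0x4c100401,0xc0300802,0x80200c03,0xc0320802,0x80220c03,0x40130401,0x40130401,0x40110401,0x40110401]

/-- the fourteen generating matrices. -/
noncomputable def Ym : List (Matrix.symplecticGroup (Fin 2) F4c) :=
  (List.range 14).map fun k => sg (nth 0 LC (2 * k))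

theorem LC_symp : ∀ c ∈ LC, mk c * Matrix.J (Fin 2) F4c * (mk c).transpose = Matrix.J (Fin 2) F4c := by
  decide +kernel

theorem LC_inv : ∀ k < 14, mulC (nth 0 LC (2 * k)) (nth 0 LC (2 * k + 1)) = 0x40100401 := by
  decide +kernel

theorem nth_LC_mem {l : ℕ} (h : l < 28) : nth 0 LC l ∈ LC := by
  rw [nth_eq_getD, List.getD_eq_getElem _ _ (by simpa [LC] using h)]
  exact List.getElem_mem _

theorem Ym_getD {k : ℕ} (h : k < 14) : Ym.getD k 1 = sg (nth 0 LC (2 * k)) := by
  rw [Ym, List.getD_eq_getElem _ _ (by simpa using h)]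
  simp

theorem lt_Ym {l : ℕ} (h : l < 28) : lt Ym l = sg (nth 0 LC l) := by
  rcases Nat.even_or_odd' l with ⟨k, rfl | rfl⟩
  · rw [lt_even, Ym_getD (by omega)]
  · rw [lt_odd, Ym_getD (by omega)]
    apply inv_eq_of_mul_eq_one_right
    apply Subtype.ext
    rw [Submonoid.coe_mul, sg_coe (LC_symp _ (nth_LC_mem (by omega))),
      sg_coe (LC_symp _ (nth_LC_mem (by omega))), ← mk_mulC, LC_inv k (by omega), mk_one]
    rfl

theorem ev_Ym (W : List ℕ) (h : ∀ l ∈ W, l < 28) :
    ((ev Ym W : Matrix.symplecticGroup (Fin 2) F4c) : Matrix (Fin 2 ⊕ Fin 2) (Fin 2 ⊕ Fin 2) F4c) = mk (evC LC W) := by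
  induction W with
  | nil => rw [evC_nil, mk_one]; rfl
  | cons l r ih =>
    rw [ev, evC_cons, mk_mulC, Submonoid.coe_mul, ih fun l' hl' => h l' (List.mem_cons_of_mem _ hl'),
      lt_Ym (h l List.mem_cons_self), sg_coe (LC_symp _ (nth_LC_mem (h l List.mem_cons_self)))]

theorem rels_code : ∀ W ∈ rels, evC LC W = 0x40100401 := by decide +kernel

theorem rels_mat : ∀ W ∈ rels, ev Ym W = 1 := by
  intro W hW
  apply Subtype.ext
  rw [ev_Ym W (rels_let W hW), rels_code W hW, mk_one]
  rfl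

instance nontrivial_mat : Nontrivial (Kd Ym 14 0) := by
  refine ⟨⟨⟨Ym.getD 0 1, getD_mem_Kd Ym (le_refl 0) (by norm_num)⟩, 1, ?_⟩⟩
  intro h
  have h1 : Ym.getD 0 1 = 1 := congrArg Subtype.val h
  rw [Ym_getD (by norm_num)] at h1
  have h2 := congrArg Subtype.val h1
  rw [sg_coe (LC_symp _ (nth_LC_mem (by norm_num)))] at h2
  have h3 : mk (nth 0 LC (2 * 0)) ≠ 1 := by decide +kernel
  exact h3 h2

theorem card_mat : Nat.card (Matrix.symplecticGroup (Fin 2) F4c) = 979200 := by
  rw [Cfsg.Agent.S0245.result F4c.card 2]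
  norm_num [Finset.prod_range_succ]

theorem Kd_mat : Kd Ym 14 0 = ⊤ := by
  have : Finite (Matrix.symplecticGroup (Fin 2) F4c) := Nat.finite_of_card_ne_zero (by rw [card_mat]; norm_num)
  apply Subgroup.eq_top_of_card_eq
  rw [(abs_simple Ym rels_mat).2, card_mat]

/-- the permutation group of degree 85 is the symplectic group. -/
theorem mat_iso : Nonempty (Kd Yp 14 0 ≃* Matrix.symplecticGroup (Fin 2) F4c) := by
  obtain ⟨e⟩ := abs_iso Ym rels_mat
  exact ⟨e.trans ((MulEquiv.subgroupCongr Kd_mat).trans Subgroup.topEquiv)⟩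

end Cfsg.Agent.Lib.Helper88.Sp4
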