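import Cfsg.Agent.Lib.Helper88.HePRel
import Cfsg.Agent.Lib.Helper88.Sp4Mat
import Cfsg.Agent.S1695

/-!
The presented Held group acts faithfully and transitively on 2058 points; fourteen explicit elements of a point
stabiliser generate a copy of `Sp(4,4)`.
-/

set_option autoImplicit false

namespace Cfsg.Agent.Lib.Helper88.HeP
open TC Cfsg.Agent.Lib.Helper35 Cfsg.Spor

/-- the 22 permutations. -/
noncomputable abbrev Y : List (Equiv.Perm (Fin 2058)) := gens 2058 nets

/-- the places of `a, b, c, d, e, f, g` in the list. -/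
def fm : List ℕ := [15,20,16,17,18,19,21]

/-- the images of the generators. -/
noncomputable def v (c : ℕ) : Equiv.Perm (Fin 2058) := Y.getD (nth 22 fm c) 1

theorem ev_inv_letters {Γ : Type*} [Group Γ] (Y : List Γ) (f : ℕ → ℕ) (b : List ℕ) :
    ev Y (b.map fun c => 2 * f c + 1) = (wval (fun c => Y.getD (f c) 1) b)⁻¹ := by
  induction b with
  | nil => simp [ev]
  | cons c r ih => rw [List.map_cons, ev, ih, lt_odd, wval_cons, mul_inv_rev]

theorem relsH_eq : relsH = PresHe.R.map (fun b => b.map fun c => 2 * nth 22 fm c + 1) := by decide +kernel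

theorem hvR : ∀ b ∈ PresHe.R, wval v b = 1 := by
  intro b hb
  have h1 : (b.map fun c => 2 * nth 22 fm c + 1) ∈ relsH := by
    rw [relsH_eq]; exact List.mem_map_of_mem hb
  have h2 := relsOK_spec nets_ok sep_ok relH_ok _ h1
  rw [ev_inv_letters, inv_eq_one] at h2
  exact h2

theorem len_Y : Y.length = 22 := by
  show (nets.map (gp 2058)).length = 22
  rw [List.length_map]; decide +kernel

theorem v_eq (c k : ℕ) (h : nth 22 fm c = k) : v c = Y.getD k 1 := by rw [v, h]

theorem v_ge {c : ℕ} (h : 7 ≤ c) : v c = 1 := by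
  have h1 : nth 22 fm c = 22 := by
    rw [nth_eq_getD, List.getD_eq_default]; simpa [fm] using h
  rw [v, h1, List.getD_eq_default _ _ (by rw [len_Y])]

theorem relsQ_mem : ∀ c < 7, [2 * nth 22 fm c, 2 * nth 22 fm c] ∈ relsQ := by decide +kernel

theorem v_sq (c : ℕ) : v c * v c = 1 := by
  by_cases h : c < 7
  · have h2 := relsOK_spec nets_ok sep_ok relQ_ok _ (relsQ_mem c h)
    rw [ev, ev, ev, lt_even, one_mul] at h2
    exact h2
  · rw [v_ge (by omega), one_mul]

theorem hvinv (c : ℕ) : v (PresHe.cc.inv c) = (v c)⁻¹ := by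
  rw [show PresHe.cc.inv c = c from invOf_range 7 c]
  exact eq_inv_of_mul_eq_one_left (v_sq c)

/-- the permutation representation of degree 2058 of the presented Held group. -/
noncomputable def rho : He →* Equiv.Perm (Fin 2058) :=
  PresentedGroup.toGroup (f := fun x => v (PresHe.cc.colIdx x))
    (cox_lift_eq_one He.edges He.extra PresHe.cc PresHe.extraL PresHe.R PresHe.allGens PresHe.hOK PresHe.hextra v
      hvinv hvR)

theorem rho_of (x : He.Gen) : rho (PresentedGroup.of x) = v (PresHe.colIdx x) := PresentedGroup.toGroup.of _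

theorem ev_mem_of {Γ : Type*} [Group Γ] (Y : List Γ) (S : Subgroup Γ) (W : List ℕ)
    (h : ∀ l ∈ W, Y.getD (l / 2) 1 ∈ S) : ev Y W ∈ S := by
  induction W with
  | nil => exact S.one_mem
  | cons l r ih =>
    rw [ev]
    refine S.mul_mem (ih fun l' hl' => h l' (List.mem_cons_of_mem _ hl')) ?_
    have h1 := h l List.mem_cons_self
    rw [lt]
    split_ifs
    · exact h1
    · exact S.inv_mem h1

/-- generators defined by words in earlier generators and in elements of a subgroup lie in the subgroup. -/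
theorem mem_of_defs {Γ : Type*} [Group Γ] (Y : List Γ) (S : Subgroup Γ) (n m : ℕ) (D : List (List ℕ))
    (hS : ∀ k, n ≤ k → k < m → Y.getD k 1 ∈ S)
    (hD : ∀ k < n, ev Y (nth [] D k ++ [2 * k + 1]) = 1)
    (hl : ∀ k < n, ∀ l ∈ nth [] D k, l < 2 * k ∨ (2 * n ≤ l ∧ l < 2 * m)) :
    ∀ k < n, Y.getD k 1 ∈ S := by
  intro k
  induction k using Nat.strong_induction_on with
  | _ k ih =>
    intro hk
    have h1 := hD k hk
    rw [ev_append, ev, ev, one_mul, lt_odd, inv_mul_eq_one] at h1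
    rw [h1]
    apply ev_mem_of
    intro l hl'
    rcases hl k hk l hl' with h2 | ⟨h2, h3⟩
    · exact ih (l / 2) (by omega) (by omega)
    · exact hS (l / 2) (by omega) (by omega)

/-- the generators of the subgroup `Sp(4,4):2`. -/
abbrev Kgen : Set (FreeGroup He.Gen) :=
  {He.a, He.c, He.d, He.e, He.f, (He.a * He.b) ^ 2, (He.b * He.c * He.d * He.e) ^ 7}

/-- the subgroup `Sp(4,4):2`. -/
abbrev K : Subgroup He :=
  (Subgroup.closure Kgen).map (PresentedGroup.mk (coxRelators He.edges ∪ {r | r ∈ He.extra}))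

theorem Y14 : Y.getD 14 1 = (v 1 * v 2 * v 3 * v 4) ^ 7 := by
  have h1 := relOK_spec nets_ok sep_ok relU_ok
  rw [ev_append, ev_rep, ev, ev, one_mul, show (29 : ℕ) = 2 * 14 + 1 from rfl, lt_odd, inv_mul_eq_one] at h1
  have h2 : ev Y [36,34,32,40] = v 1 * v 2 * v 3 * v 4 := by
    rw [ev, ev, ev, ev, ev, one_mul, show (36 : ℕ) = 2 * 18 from rfl, show (34 : ℕ) = 2 * 17 from rfl,
      show (32 : ℕ) = 2 * 16 from rfl, show (40 : ℕ) = 2 * 20 from rfl, lt_even, lt_even, lt_even, lt_even,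
      v_eq 1 20 rfl, v_eq 2 16 rfl, v_eq 3 17 rfl, v_eq 4 18 rfl]
  rw [h1, h2]

theorem Y_mem_K : ∀ k, 14 ≤ k → k < 20 → Y.getD k 1 ∈ K.map rho := by
  intro k h1 h2
  have key : ∀ w ∈ Kgen, rho (PresentedGroup.mk (coxRelators He.edges ∪ {r | r ∈ He.extra}) w) ∈ K.map rho :=
    fun w hw => Subgroup.mem_map_of_mem _ (Subgroup.mem_map_of_mem _ (Subgroup.subset_closure hw))
  have hof : ∀ x : He.Gen, rho (PresentedGroup.mk (coxRelators He.edges ∪ {r | r ∈ He.extra}) (FreeGroup.of x)) =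
      v (PresHe.colIdx x) := rho_of
  interval_cases k
  · have h := key ((He.b * He.c * He.d * He.e) ^ 7) (by simp [Kgen])
    rw [map_pow, map_pow, map_mul, map_mul, map_mul, map_mul, map_mul, map_mul, hof, hof, hof, hof] at h
    rw [Y14]
    exact h
  · have h := key He.a (by simp [Kgen])
    rw [hof] at h
    exact h
  · have h := key He.c (by simp [Kgen])
    rw [hof] at h
    exact h
  · have h := key He.d (by simp [Kgen])
    rw [hof] at h
    exact h
  · have h := key He.e (by simp [Kgen])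
    rw [hof] at h
    exact h
  · have h := key He.f (by simp [Kgen])
    rw [hof] at h
    exact h

theorem defs_mem : ∀ k < 14, nth [] defs k ++ [2 * k + 1] ∈ relsD := by decide +kernel

theorem defs_let : ∀ k < 14, ∀ l ∈ nth [] defs k, l < 2 * k ∨ (2 * 14 ≤ l ∧ l < 2 * 20) := by decide +kernel

/-- the copy of `Sp(4,4)`. -/
noncomputable abbrev N0 : Subgroup (Equiv.Perm (Fin 2058)) := Kd Y 14 0

theorem N0_le_K : N0 ≤ K.map rho := by
  show Kd Y 14 0 ≤ K.map rho
  rw [Kd, Subgroup.closure_le]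
  rintro g ⟨k, _, h2, rfl⟩
  exact mem_of_defs Y _ 14 20 defs Y_mem_K (fun k hk => relsOK_spec nets_ok sep_ok relD_ok _ (defs_mem k hk))
    defs_let k h2

theorem N0_le_range : N0 ≤ rho.range := N0_le_K.trans (Subgroup.map_le_range _ _)

instance nontrivial_N0 : Nontrivial N0 := by
  have h := level_ge nets_ok (Nat.zero_le 14) (b := ⟨8, by norm_num⟩) fixT orbN
  rw [card_Kd_self] at h
  show Nontrivial (Kd (gens 2058 nets) 14 0)
  exact Finite.one_lt_card_iff_nontrivial.1 (by omega)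

theorem rho_inj : Function.Injective rho := by
  have hs : IsSimpleGroup He := Cfsg.Agent.S1695.result.1
  rcases hs.eq_bot_or_eq_top_of_normal rho.ker inferInstance with h | h
  · exact (MonoidHom.ker_eq_bot_iff _).1 h
  · exfalso
    obtain ⟨x, y, hxy⟩ := nontrivial_N0
    have h1 : ∀ z : N0, (z : Equiv.Perm (Fin 2058)) = 1 := by
      intro z
      obtain ⟨w, hw⟩ := N0_le_range z.2
      rw [← hw]
      have : w ∈ rho.ker := by rw [h]; trivial
      exact this
    exact hxy (Subtype.ext ((h1 x).trans (h1 y).symm))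

theorem relS : ∀ W ∈ Sp4.rels, ev Y W = 1 := relsOK_spec nets_ok sep_ok relS_ok

theorem card_N0 : Nat.card N0 = 979200 := (Sp4.abs_simple Y relS).2

theorem N0_iso : Nonempty (N0 ≃* Matrix.symplecticGroup (Fin 2) Helper34.F4c) := by
  obtain ⟨e⟩ := Sp4.abs_iso Y relS
  obtain ⟨e'⟩ := Sp4.mat_iso
  exact ⟨e.symm.trans e'⟩

theorem N0_fix : ∀ g ∈ N0, g 0 = 0 := fixOK_spec nets_ok (b := ⟨0, by norm_num⟩) fixN

theorem isHe_range : IsHe rho.range := by
  have hs : IsSimpleGroup He := Cfsg.Agent.S1695.result.1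
  exact ⟨(MonoidHom.ofInjective rho_inj).symm.isSimpleGroup,
    by rw [← Nat.card_congr (MonoidHom.ofInjective rho_inj).toEquiv]; exact Cfsg.Agent.S1695.result.2⟩

theorem Kd_le_range : Kd Y 22 15 ≤ rho.range := by
  rw [Kd, Subgroup.closure_le]
  rintro g ⟨k, h1, h2, rfl⟩
  interval_cases k
  · exact ⟨_, rho_of .a⟩
  · exact ⟨_, rho_of .c⟩
  · exact ⟨_, rho_of .d⟩
  · exact ⟨_, rho_of .e⟩
  · exact ⟨_, rho_of .f⟩
  · exact ⟨_, rho_of .b⟩
  · exact ⟨_, rho_of .g⟩

theorem trans_of' {N : ℕ} {nets : List (List (ℕ × ℕ))} (h : netsOK N nets = true) {Ws : List (List ℕ)}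
    (S : Subgroup (Equiv.Perm (Fin N))) {is : List ℕ} {β : ℕ} (hb : β < N)
    (ho : Nat.beq (orb nets Ws is β) (fullN N) = true) (hS : ∀ W ∈ Ws, ev (gens N nets) W ∈ S) (x : Fin N) :
    ∃ g ∈ S, g ⟨β, hb⟩ = x :=
  trans_of h S hS (b := ⟨β, hb⟩) ho x

instance trans_range : MulAction.IsPretransitive rho.range (Fin 2058) := by
  have h0 : ∀ x, ∃ g ∈ rho.range, g (⟨0, by norm_num⟩ : Fin 2058) = x :=
    trans_of' nets_ok rho.range (by norm_num) tr_ok (fun W hW => Kd_le_range (lets_spec Y 22 15 W hW))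
  constructor
  intro x y
  obtain ⟨g, hg, e1⟩ := h0 x
  obtain ⟨g', hg', e2⟩ := h0 y
  refine ⟨⟨g' * g⁻¹, mul_mem hg' (inv_mem hg)⟩, ?_⟩
  show (g' * g⁻¹) x = y
  rw [← e1, Equiv.Perm.mul_apply, Equiv.Perm.inv_def, Equiv.symm_apply_apply, e2]

end Cfsg.Agent.Lib.Helper88.HeP
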