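import Cfsg.Agent.Lib.Helper88.HCHRel
import Cfsg.Agent.Lib.Helper88.HCMat
import Cfsg.Agent.Lib.Helper88.HeSp4

/-!
The centraliser of the generator `d` of the presented Held group is isomorphic to the centraliser of a transvection in
`SL(5,2)`.
-/

set_option autoImplicit false
set_option maxRecDepth 100000

namespace Cfsg.Agent.Lib.Helper88.HCH
open TC Cfsg.Spor

/-- the 42 permutations. -/
noncomputable abbrev YH : List (Equiv.Perm (Fin 2058)) := gens 2058 nets

theorem YH_shift (k : ℕ) : YH.getD (20 + k) 1 = HeP.Y.getD k 1 := by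
  show ((netsC ++ HeP.nets).map (gp 2058)).getD (20 + k) 1 = (HeP.nets.map (gp 2058)).getD k 1
  rw [List.map_append, List.getD_append_right _ _ _ _ (by rw [List.length_map, len_netsC]; omega), List.length_map,
    len_netsC]
  congr 1
  omega

theorem HeY_range : ∀ k < 22, HeP.Y.getD k 1 ∈ HeP.rho.range := by
  intro k hk
  by_cases h14 : k < 14
  · exact HeP.N0_le_range (getD_mem_Kd HeP.Y (Nat.zero_le k) h14)
  by_cases h15 : k < 15
  · exact (Subgroup.map_le_range _ _) (HeP.Y_mem_K k (by omega) (by omega))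
  · exact HeP.Kd_le_range (getD_mem_Kd HeP.Y (by omega) hk)

theorem YH_range_He : ∀ k, 20 ≤ k → k < 42 → YH.getD k 1 ∈ HeP.rho.range := by
  intro k h1 h2
  obtain ⟨j, rfl⟩ := Nat.exists_eq_add_of_le h1
  rw [YH_shift]
  exact HeY_range j (by omega)

theorem relD : ∀ W ∈ relsD, ev YH W = 1 := relsOK_spec nets_ok HeP.sep_ok relD_ok

theorem relC : ∀ W ∈ HC.rels, ev YH W = 1 := relsOK_spec nets_ok HeP.sep_ok relC_ok

theorem mem_of_def (S : Subgroup (Equiv.Perm (Fin 2058))) {k : ℕ} (hk : k < 20)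
    (hl : ∀ l ∈ nth [] defs k, YH.getD (l / 2) 1 ∈ S) : YH.getD k 1 ∈ S := by
  have h1 := relD _ (defs_mem k hk)
  rw [ev_append, ev, ev, one_mul, lt_odd, inv_mul_eq_one] at h1
  rw [h1]
  exact HeP.ev_mem_of YH S _ hl

theorem YH_range_aux : ∀ k, 16 ≤ k → k < 20 → YH.getD k 1 ∈ HeP.rho.range := by
  intro k h1 h2
  apply mem_of_def _ h2
  intro l hl
  obtain ⟨h3, h4⟩ := defs_letA k h1 h2 l hl
  exact YH_range_He _ (by omega) (by omega)

theorem YH_range_root : ∀ k < 13, YH.getD k 1 ∈ HeP.rho.range := by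
  intro k h2
  apply mem_of_def _ (by omega)
  intro l hl
  obtain ⟨h3, h4⟩ := defs_letR k h2 l hl
  by_cases h5 : l / 2 < 20
  · exact YH_range_aux _ (by omega) h5
  · exact YH_range_He _ (by omega) (by omega)

/-- the involution. -/
noncomputable abbrev zeta : Equiv.Perm (Fin 2058) := YH.getD 0 1

/-- its preimage, the generator `d`. -/
noncomputable abbrev z : He := PresentedGroup.of He.Gen.d

theorem ev_zero : ev YH [0] = zeta := by
  rw [ev, ev, one_mul]
  exact lt_even YH 0

theorem zeta_eq : zeta = YH.getD 37 1 := by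
  have h : ev YH [74, 1] = 1 := relD _ (defs_mem 0 (by norm_num))
  have e1 : lt YH 1 = (YH.getD 0 1)⁻¹ := lt_odd YH 0
  have e2 : lt YH 74 = YH.getD 37 1 := lt_even YH 37
  rw [ev, ev, ev, one_mul, e1, e2, inv_mul_eq_one] at h
  exact h

theorem rho_z : HeP.rho z = zeta := by
  rw [zeta_eq, show (37 : ℕ) = 20 + 17 from rfl, YH_shift]
  exact HeP.rho_of .d

/-- the group generated by the images of the root elements. -/
noncomputable abbrev A : Subgroup (Equiv.Perm (Fin 2058)) := Kd YH 13 0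

theorem card_A : 21504 ≤ Nat.card A := by
  have h1 := level_ge nets_ok (ng := 16) (d := 0) (d' := 13) (Nat.zero_le _) (b := ⟨5, by norm_num⟩) fixU orbA
  have h2 := level_ge nets_ok (ng := 16) (d := 13) (d' := 16) (by norm_num) (b := ⟨9, by norm_num⟩) fixT orbU
  rw [card_Kd_self] at h2
  have h3 : Kd YH 16 0 ≤ Kd YH 13 0 := by
    rw [Kd, Subgroup.closure_le]
    rintro g ⟨k, _, hk, rfl⟩
    by_cases h13 : k < 13
    · exact getD_mem_Kd YH (Nat.zero_le k) h13
    · apply mem_of_def _ (by omega)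
      intro l hl
      have := defs_letU k (by omega) hk l hl
      exact getD_mem_Kd YH (Nat.zero_le _) (by omega)
  have h4 := Subgroup.card_le_of_le h3
  have h5 : Nat.card (Kd YH 16 0) ≤ Nat.card A := h4
  have h6 : 1344 * Nat.card (Kd YH 16 13) ≤ Nat.card (Kd YH 16 0) := h1
  have h7 : 16 * 1 ≤ Nat.card (Kd YH 16 13) := h2
  omega

/-- the centraliser. -/
noncomputable abbrev C : Subgroup (Equiv.Perm (Fin 2058)) := Subgroup.centralizer {zeta} ⊓ HeP.rho.range

theorem A_le_C : A ≤ C := by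
  apply le_inf
  · apply Kd_le_cent YH 13
    intro k hk
    exact relsOK_spec nets_ok HeP.sep_ok commH_ok _ (List.mem_map.2 ⟨k, List.mem_range.2 hk, rfl⟩)
  · show Kd YH 13 0 ≤ HeP.rho.range
    rw [Kd, Subgroup.closure_le]
    rintro g ⟨k, _, hk, rfl⟩
    exact YH_range_root k hk

theorem fix0 : ∀ g ∈ Kd YH 40 20, g 0 = 0 := fixOK_spec nets_ok (b := ⟨0, by norm_num⟩) fixS

/-- the point stabiliser. -/
noncomputable abbrev H : Subgroup (Equiv.Perm (Fin 2058)) :=
  HeP.rho.range ⊓ MulAction.stabilizer (Equiv.Perm (Fin 2058)) (0 : Fin 2058)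

theorem card_H : Nat.card H ≤ 1958400 := by
  have h1 := stab_card HeP.rho.range (0 : Fin 2058)
  rw [HeP.isHe_range.2] at h1
  have h2 : Nat.card H ≤ Nat.card (MulAction.stabilizer HeP.rho.range (0 : Fin 2058)) := by
    apply Nat.card_le_card_of_injective
      (fun h : H => (⟨⟨h.1, h.2.1⟩, h.2.2⟩ : MulAction.stabilizer HeP.rho.range (0 : Fin 2058)))
    intro a b e
    have e1 : a.1 = b.1 :=
      congrArg (fun y : MulAction.stabilizer HeP.rho.range (0 : Fin 2058) => y.1.1) e
    exact Subtype.ext e1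
  omega

theorem card_CH : Nat.card ↥(Subgroup.centralizer {zeta} ⊓ H) ≤ 512 := by
  have hn : ((conjH.map (ev YH)).map fun w => w * zeta * w⁻¹).Nodup := by
    rw [List.map_map]
    have h := nodup_of_chain nets_ok XH (cw 0) conj_ok
    have e : ((fun w => w * zeta * w⁻¹) ∘ ev YH) = fun W => ev (gens 2058 nets) (cw 0 W) := by
      funext W
      show ev YH W * zeta * (ev YH W)⁻¹ = ev YH (cw 0 W)
      rw [ev_cw, show lt YH 0 = zeta from lt_even YH 0]
    rw [e]
    exact h
  have hL : ∀ w ∈ conjH.map (ev YH), w ∈ H := by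
    intro w hw
    obtain ⟨W, hW, rfl⟩ := List.mem_map.1 hw
    have hl := conj_let W hW
    refine ⟨?_, ?_⟩
    · apply HeP.ev_mem_of
      intro l hl'
      obtain ⟨h1, h2⟩ := hl l hl'
      exact YH_range_He _ (by omega) (by omega)
    · exact fix0 _ (ev_mem_Kd YH W (fun l hl' => hl l hl'))
  have h := cent_bound H zeta (conjH.map (ev YH)) hL hn
  rw [List.length_map, conj_len] at h
  have := card_H
  omega

theorem card_C : Nat.card C ≤ 21504 := by
  have h0 : zeta 0 = 0 := by
    rw [zeta_eq]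
    exact fix0 _ (getD_mem_Kd YH (by norm_num) (by norm_num))
  have hf : ∀ S : Set (Fin 2058), (∀ x ∈ S, zeta x = x) → S.ncard ≤ 42 := by
    intro S hS
    apply fix_bound nets_ok HeP.Bs [0] mv_ok S
    intro x hx
    rw [ev_zero]
    exact hS x hx
  have h := cent_orbit C zeta inf_le_left 0 h0 42 hf
  have e : C ⊓ MulAction.stabilizer (Equiv.Perm (Fin 2058)) (0 : Fin 2058) = Subgroup.centralizer {zeta} ⊓ H :=
    inf_assoc _ _ _
  rw [e] at h
  have := card_CH
  omega

theorem A_eq_C : A = C := Subgroup.eq_of_le_of_card_ge A_le_C (card_C.trans card_A)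

theorem map_cent : (Subgroup.centralizer ({z} : Set He)).map HeP.rho = C := by
  ext p
  constructor
  · rintro ⟨g, hg, rfl⟩
    refine ⟨?_, g, rfl⟩
    have h1 : g * z = z * g := Subgroup.mem_centralizer_singleton_iff.1 hg
    apply Subgroup.mem_centralizer_singleton_iff.2
    rw [← rho_z, ← map_mul, ← map_mul, h1]
  · rintro ⟨h1, g, rfl⟩
    refine ⟨g, ?_, rfl⟩
    have h2 : HeP.rho g * zeta = zeta * HeP.rho g := Subgroup.mem_centralizer_singleton_iff.1 h1
    apply Subgroup.mem_centralizer_singleton_iff.2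
    apply HeP.rho_inj
    rw [map_mul, map_mul, rho_z, h2]

theorem order_z : orderOf z = 2 := by
  rw [← orderOf_injective HeP.rho HeP.rho_inj z, rho_z]
  have : Fact (Nat.Prime 2) := ⟨Nat.prime_two⟩
  apply orderOf_eq_prime
  · have h : ev YH [0, 0] = 1 := relC _ (by decide +kernel)
    have e0 : lt YH 0 = zeta := lt_even YH 0
    rw [ev, ev, ev, one_mul, e0] at h
    rw [pow_two]
    exact h
  · intro e
    have h1 := mapsOK_spec nets_ok mvz
    have h2 := ev_apply nets_ok [0] (⟨2, by norm_num⟩ : Fin 2058)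
    rw [ev_zero, e, h1] at h2
    simp at h2

/-- **The centraliser of an involution of the Held group.** -/
theorem main (s : HC.SL5) (hs : (s : Matrix (Fin 5) (Fin 5) (ZMod 2)) = Matrix.transvection 0 1 1) :
    ∃ z : He, orderOf z = 2 ∧ Nonempty (↥(Subgroup.centralizer ({z} : Set He)) ≃*
      ↥(Subgroup.centralizer ({s} : Set HC.SL5))) := by
  refine ⟨z, order_z, ?_⟩
  obtain ⟨e1⟩ := HC.mat_iso s hs
  obtain ⟨e2⟩ := HC.abs_iso YH relC card_A
  have e3 : ↥(Subgroup.centralizer ({z} : Set He)) ≃* ↥((Subgroup.centralizer ({z} : Set He)).map HeP.rho) :=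
    (Subgroup.centralizer ({z} : Set He)).equivMapOfInjective HeP.rho HeP.rho_inj
  have e4 : ↥((Subgroup.centralizer ({z} : Set He)).map HeP.rho) ≃* ↥A :=
    MulEquiv.subgroupCongr (map_cent.trans A_eq_C.symm)
  exact ⟨(e3.trans e4).trans (e2.symm.trans e1.symm)⟩

end Cfsg.Agent.Lib.Helper88.HCH
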