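import Cfsg.Agent.Lib.Helper88.TCCore

/-!
The graph trick: if the relators bound the order of every group generated by a list of elements satisfying them by the
order of a simple model, then every such group is trivial or isomorphic to the model.
-/

set_option autoImplicit false

namespace Cfsg.Agent.Lib.Helper88.TC

section
variable {Γ Γ' : Type*} [Group Γ] [Group Γ']

/-- the list of the pairs of generators. -/
def zipY (Y : List Γ) (Y' : List Γ') (ng : ℕ) : List (Γ × Γ') :=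
  (List.range ng).map fun k => (Y.getD k 1, Y'.getD k 1)

theorem zipY_getD (Y : List Γ) (Y' : List Γ') {ng k : ℕ} (hk : k < ng) :
    (zipY Y Y' ng).getD k 1 = (Y.getD k 1, Y'.getD k 1) := by
  rw [zipY, List.getD_eq_getElem _ _ (by simpa using hk)]
  simp

theorem lt_zipY (Y : List Γ) (Y' : List Γ') {ng l : ℕ} (hl : l < 2 * ng) :
    lt (zipY Y Y' ng) l = (lt Y l, lt Y' l) := by
  rcases Nat.even_or_odd' l with ⟨k, rfl | rfl⟩
  · rw [lt_even, lt_even, lt_even, zipY_getD _ _ (by omega)]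
  · rw [lt_odd, lt_odd, lt_odd, zipY_getD _ _ (by omega)]
    rfl

theorem ev_zipY (Y : List Γ) (Y' : List Γ') {ng : ℕ} (W : List ℕ) (hW : ∀ l ∈ W, l < 2 * ng) :
    ev (zipY Y Y' ng) W = (ev Y W, ev Y' W) := by
  induction W with
  | nil => rfl
  | cons l r ih =>
    rw [ev, ev, ev, ih (fun l' hl' => hW l' (List.mem_cons_of_mem _ hl')), lt_zipY _ _ (hW l List.mem_cons_self)]
    rfl

theorem map_fst_Kd (Y : List Γ) (Y' : List Γ') (ng : ℕ) :
    (Kd (zipY Y Y' ng) ng 0).map (MonoidHom.fst Γ Γ') = Kd Y ng 0 := by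
  rw [Kd, MonoidHom.map_closure, Kd]
  congr 1
  ext g
  constructor
  · rintro ⟨x, ⟨k, h1, h2, rfl⟩, rfl⟩
    exact ⟨k, h1, h2, by rw [zipY_getD _ _ h2]; rfl⟩
  · rintro ⟨k, h1, h2, rfl⟩
    exact ⟨_, ⟨k, h1, h2, rfl⟩, by rw [zipY_getD _ _ h2]; rfl⟩

theorem map_snd_Kd (Y : List Γ) (Y' : List Γ') (ng : ℕ) :
    (Kd (zipY Y Y' ng) ng 0).map (MonoidHom.snd Γ Γ') = Kd Y' ng 0 := by
  rw [Kd, MonoidHom.map_closure, Kd]
  congr 1
  ext g
  constructor
  · rintro ⟨x, ⟨k, h1, h2, rfl⟩, rfl⟩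
    exact ⟨k, h1, h2, by rw [zipY_getD _ _ h2]; rfl⟩
  · rintro ⟨k, h1, h2, rfl⟩
    exact ⟨_, ⟨k, h1, h2, rfl⟩, by rw [zipY_getD _ _ h2]; rfl⟩

/-- **The graph trick**: a surjective homomorphism from the model mapping generators to generators. -/
theorem exists_hom (Y : List Γ) (Y' : List Γ') {ng n : ℕ} (hcard : Nat.card (Kd Y' ng 0) = n)
    (hfin : Finite (Kd (zipY Y Y' ng) ng 0)) (hle : Nat.card (Kd (zipY Y Y' ng) ng 0) ≤ n) :
    ∃ φ : Kd Y' ng 0 →* Kd Y ng 0, Function.Surjective φ ∧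
      ∀ W : List ℕ, (∀ l ∈ W, l < 2 * ng) → ∀ h : ev Y' W ∈ Kd Y' ng 0, ((φ ⟨ev Y' W, h⟩ : Kd Y ng 0) : Γ) = ev Y W := by
  set D := Kd (zipY Y Y' ng) ng 0 with hD
  let f1 : D →* Kd Y ng 0 := ((MonoidHom.fst Γ Γ').comp D.subtype).codRestrict _ (fun x => by
    rw [← map_fst_Kd Y Y' ng]
    exact ⟨x.1, x.2, rfl⟩)
  let f2 : D →* Kd Y' ng 0 := ((MonoidHom.snd Γ Γ').comp D.subtype).codRestrict _ (fun x => by
    rw [← map_snd_Kd Y Y' ng]
    exact ⟨x.1, x.2, rfl⟩)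
  have hs1 : Function.Surjective f1 := by
    rintro ⟨g, hg⟩
    rw [← map_fst_Kd Y Y' ng] at hg
    obtain ⟨x, hx, rfl⟩ := hg
    exact ⟨⟨x, hx⟩, rfl⟩
  have hs2 : Function.Surjective f2 := by
    rintro ⟨g, hg⟩
    rw [← map_snd_Kd Y Y' ng] at hg
    obtain ⟨x, hx, rfl⟩ := hg
    exact ⟨⟨x, hx⟩, rfl⟩
  have hb2 : Function.Bijective f2 := by
    have : Finite (Kd Y' ng 0) := Finite.of_surjective f2 hs2
    refine ⟨?_, hs2⟩
    have h1 : Nat.card D ≤ Nat.card (Kd Y' ng 0) := by rw [hcard]; exact hle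
    exact (Function.Surjective.bijective_of_nat_card_le hs2 h1).1
  let e2 : D ≃* Kd Y' ng 0 := MulEquiv.ofBijective f2 hb2
  refine ⟨f1.comp e2.symm.toMonoidHom, hs1.comp e2.symm.surjective, ?_⟩
  intro W hW h
  have hmem : ev (zipY Y Y' ng) W ∈ D := ev_mem_Kd _ W (fun l hl => ⟨by omega, hW l hl⟩)
  have e : e2 ⟨ev (zipY Y Y' ng) W, hmem⟩ = ⟨ev Y' W, h⟩ := by
    apply Subtype.ext
    show (ev (zipY Y Y' ng) W).2 = _
    rw [ev_zipY _ _ W hW]
  have e' : e2.symm ⟨ev Y' W, h⟩ = ⟨ev (zipY Y Y' ng) W, hmem⟩ := by rw [← e, MulEquiv.symm_apply_apply]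
  show ((f1 (e2.symm ⟨ev Y' W, h⟩) : Kd Y ng 0) : Γ) = _
  rw [e']
  show (ev (zipY Y Y' ng) W).1 = _
  rw [ev_zipY _ _ W hW]

/-- if the model is simple then every nontrivial group generated by elements satisfying the relators is isomorphic to
the model. -/
theorem rigid (Y : List Γ) (Y' : List Γ') {ng n : ℕ} (hcard : Nat.card (Kd Y' ng 0) = n)
    [IsSimpleGroup (Kd Y' ng 0)] (hfin : Finite (Kd (zipY Y Y' ng) ng 0))
    (hle : Nat.card (Kd (zipY Y Y' ng) ng 0) ≤ n) [Nontrivial (Kd Y ng 0)] :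
    Nonempty (Kd Y' ng 0 ≃* Kd Y ng 0) := by
  obtain ⟨φ, hφ, _⟩ := exists_hom Y Y' hcard hfin hle
  rcases (φ.normal_ker).eq_bot_or_eq_top with h | h
  · exact ⟨MulEquiv.ofBijective φ ⟨(MonoidHom.ker_eq_bot_iff φ).1 h, hφ⟩⟩
  · exfalso
    obtain ⟨x, hx⟩ := exists_ne (1 : Kd Y ng 0)
    obtain ⟨y, rfl⟩ := hφ x
    apply hx
    have : y ∈ φ.ker := by rw [h]; exact Subgroup.mem_top y
    exact this

end

end Cfsg.Agent.Lib.Helper88.TC
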