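import Cfsg.Agent.Lib.Helper88.TCPerm
import Cfsg.Agent.Lib.Helper88.TCRigid

/-!
Lists of pairwise distinct permutations given by words (certified by the preimages of a fixed set of points), and bounds
for the order of the centraliser of an element.
-/

set_option autoImplicit false

namespace Cfsg.Agent.Lib.Helper88.TC

section words
variable {Γ : Type*} [Group Γ]

/-- the inverse letter. -/
def il (l : ℕ) : ℕ := bif Nat.beq (l % 2) 0 then l + 1 else l - 1

theorem il_even (k : ℕ) : il (2 * k) = 2 * k + 1 := by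
  have h : (2 * k) % 2 = 0 := by omega
  simp [il, h]

theorem il_odd (k : ℕ) : il (2 * k + 1) = 2 * k := by
  have h : (2 * k + 1) % 2 = 1 := by omega
  rw [il, h]
  rfl

theorem lt_il (Y : List Γ) (l : ℕ) : lt Y (il l) = (lt Y l)⁻¹ := by
  rcases Nat.even_or_odd' l with ⟨k, rfl | rfl⟩
  · rw [il_even, lt_even, lt_odd]
  · rw [il_odd, lt_even, lt_odd, inv_inv]

/-- the inverse word. -/
def wi (W : List ℕ) : List ℕ := (W.map il).reverse

theorem ev_wi (Y : List Γ) (W : List ℕ) : ev Y (wi W) = (ev Y W)⁻¹ := by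
  induction W with
  | nil => simp [wi, ev]
  | cons l r ih =>
    have e : wi (l :: r) = wi r ++ [il l] := by simp [wi]
    rw [e, ev_append, ev, ev, one_mul, lt_il, ih, ev, mul_inv_rev]

/-- the word of a conjugate of a letter. -/
def cw (zl : ℕ) (W : List ℕ) : List ℕ := wi W ++ zl :: W

theorem ev_cw (Y : List Γ) (zl : ℕ) (W : List ℕ) : ev Y (cw zl W) = ev Y W * lt Y zl * (ev Y W)⁻¹ := by
  rw [cw, ev_append, ev, ev_wi]

theorem length_le_card (S : Subgroup Γ) [Finite S] (L : List Γ) (hn : L.Nodup) (hS : ∀ g ∈ L, g ∈ S) :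
    L.length ≤ Nat.card S := by
  have hi : Function.Injective (fun i : Fin L.length => (⟨L.get i, hS _ (L.get_mem i)⟩ : S)) := by
    intro i j e
    exact (List.nodup_iff_injective_get.1 hn) (congrArg Subtype.val e)
  have := Nat.card_le_card_of_injective _ hi
  simpa using this

/-- many distinct conjugates under a subgroup bound the centraliser in the subgroup. -/
theorem cent_bound (H : Subgroup Γ) [Finite H] (ζ : Γ) (L : List Γ) (hL : ∀ w ∈ L, w ∈ H)
    (hn : (L.map fun w => w * ζ * w⁻¹).Nodup) :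
    Nat.card ↥(Subgroup.centralizer {ζ} ⊓ H) * L.length ≤ Nat.card H := by
  have hinj : Function.Injective (fun p : ↥(Subgroup.centralizer {ζ} ⊓ H) × Fin L.length =>
      (⟨L.get p.2 * p.1.1, H.mul_mem (hL _ (L.get_mem _)) p.1.2.2⟩ : H)) := by
    rintro ⟨c, i⟩ ⟨c', j⟩ e
    have e1 : L.get i * c.1 = L.get j * c'.1 := congrArg Subtype.val e
    have key : ∀ (w : Γ) (d : ↥(Subgroup.centralizer {ζ} ⊓ H)), (w * d.1) * ζ * (w * d.1)⁻¹ = w * ζ * w⁻¹ := by
      intro w d
      have hd : d.1 * ζ = ζ * d.1 := (Subgroup.mem_centralizer_singleton_iff.1 d.2.1)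
      calc (w * d.1) * ζ * (w * d.1)⁻¹ = w * (d.1 * ζ) * d.1⁻¹ * w⁻¹ := by rw [mul_inv_rev]; group
        _ = w * ζ * w⁻¹ := by rw [hd]; group
    have e2 : L.get i * ζ * (L.get i)⁻¹ = L.get j * ζ * (L.get j)⁻¹ := by
      rw [← key (L.get i) c, ← key (L.get j) c', e1]
    have e3 : L.get i = L.get j := List.inj_on_of_nodup_map hn (L.get_mem i) (L.get_mem j) e2
    have e4 : i = j := (List.nodup_iff_injective_get.1 hn.of_map) e3
    subst e4
    have e5 : c.1 = c'.1 := mul_left_cancel e1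
    rw [Subtype.ext e5]
  have := Nat.card_le_card_of_injective _ hinj
  rwa [Nat.card_prod, Nat.card_fin] at this

/-- the graph trick, when both groups are as large as the bound. -/
theorem iso_of_card {Γ' : Type*} [Group Γ'] (Y : List Γ) (Y' : List Γ') {ng n : ℕ} (hcard : Nat.card (Kd Y' ng 0) = n)
    (hfin : Finite (Kd (zipY Y Y' ng) ng 0)) (hle : Nat.card (Kd (zipY Y Y' ng) ng 0) ≤ n)
    [Finite (Kd Y ng 0)] (hge : n ≤ Nat.card (Kd Y ng 0)) : Nonempty (Kd Y' ng 0 ≃* Kd Y ng 0) := by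
  obtain ⟨φ, hφ, _⟩ := exists_hom Y Y' hcard hfin hle
  have hn : 0 < n := by
    rw [← hcard]
    have : Finite (Kd Y' ng 0) := by
      rw [← map_snd_Kd Y Y' ng]
      exact Finite.of_surjective (fun x : Kd (zipY Y Y' ng) ng 0 =>
        (⟨MonoidHom.snd Γ Γ' x.1, x.1, x.2, rfl⟩ : (Kd (zipY Y Y' ng) ng 0).map (MonoidHom.snd Γ Γ')))
        (by rintro ⟨_, x, hx, rfl⟩; exact ⟨⟨x, hx⟩, rfl⟩)
    exact Nat.card_pos
  have : Finite (Kd Y' ng 0) := Nat.finite_of_card_ne_zero (by rw [hcard]; omega)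
  exact ⟨MulEquiv.ofBijective φ (Function.Surjective.bijective_of_nat_card_le hφ (by rw [hcard]; exact hge))⟩

end words

section perm
variable {N : ℕ} {nets : List (List (ℕ × ℕ))}

/-- the preimage of a set of points under a word. -/
noncomputable def fpr (nets : List (List (ℕ × ℕ))) (N X : ℕ) (W : List ℕ) : ℕ := Nat.land (appW nets W X) (fullN N)

theorem fpr_congr (h : netsOK N nets = true) (X : ℕ) {W W' : List ℕ}
    (e : ev (gens N nets) W = ev (gens N nets) W') : fpr nets N X W = fpr nets N X W' := by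
  apply Nat.eq_of_testBit_eq
  intro j
  show ((appW nets W X) &&& (2 ^ N - 1)).testBit j = ((appW nets W' X) &&& (2 ^ N - 1)).testBit j
  rw [Nat.testBit_and, Nat.testBit_and, Nat.testBit_two_pow_sub_one]
  by_cases hj : j < N
  · rw [appW_testBit h, appW_testBit h, ← ev_apply h W ⟨j, hj⟩, ← ev_apply h W' ⟨j, hj⟩, e]
  · simp [hj]

/-- the values of `f` increase strictly along the list. -/
noncomputable def chainOK (f : List ℕ → ℕ) (Ws : List (List ℕ)) : ℕ → Bool :=
  List.rec (fun _ => true) (fun W _ ih prev => frc (f W) (fun v => Bool.rec false (ih v) (Nat.blt prev v))) Ws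

theorem chainOK_cons (f : List ℕ → ℕ) (W : List ℕ) (r : List (List ℕ)) (prev : ℕ) :
    chainOK f (W :: r) prev = (Nat.blt prev (f W) && chainOK f r (f W)) := by
  have e : chainOK f (W :: r) prev = frc (f W) (fun v => Bool.rec false (chainOK f r v) (Nat.blt prev v)) := rfl
  rw [e, frc_eq]
  cases Nat.blt prev (f W) <;> rfl

theorem chainOK_spec (f : List ℕ → ℕ) : ∀ (Ws : List (List ℕ)) (prev : ℕ), chainOK f Ws prev = true →
    (∀ W ∈ Ws, prev < f W) ∧ Ws.Pairwise (fun a b => f a < f b) := by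
  intro Ws
  induction Ws with
  | nil => intro _ _; exact ⟨by simp, List.Pairwise.nil⟩
  | cons W r ih =>
    intro prev h
    rw [chainOK_cons, Bool.and_eq_true, Nat.blt_eq] at h
    obtain ⟨h1, h2⟩ := h
    obtain ⟨h3, h4⟩ := ih _ h2
    refine ⟨?_, List.pairwise_cons.2 ⟨h3, h4⟩⟩
    intro W' hW'
    rcases List.mem_cons.1 hW' with rfl | h5
    · exact h1
    · exact lt_trans h1 (h3 _ h5)

/-- the permutations given by the words `t W` are pairwise distinct. -/
theorem nodup_of_chain (h : netsOK N nets = true) (X : ℕ) (t : List ℕ → List ℕ) {Ws : List (List ℕ)}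
    (hc : chainOK (fun W => fpr nets N X (t W)) Ws 0 = true) :
    (Ws.map fun W => ev (gens N nets) (t W)).Nodup := by
  rw [List.Nodup, List.pairwise_map]
  refine (chainOK_spec _ Ws 0 hc).2.imp ?_
  intro a b hab e
  rw [fpr_congr h X e] at hab
  exact lt_irrefl _ hab

/-- a set of points which are moved by a word. -/
noncomputable def mv (nets : List (List (ℕ × ℕ))) (Bs : List ℕ) (W : List ℕ) : ℕ :=
  fl (fun acc B => Nat.lor acc (Nat.xor (appW nets W B) B)) Bs 0

theorem mv_spec (h : netsOK N nets = true) (Bs : List ℕ) (W : List ℕ) (x : Fin N)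
    (hx : ev (gens N nets) W x = x) : (mv nets Bs W).testBit x = false := by
  by_contra hne
  have h1 : (mv nets Bs W).testBit x = true := by simpa using hne
  rcases fl_lor_testBit _ Bs _ _ h1 with h2 | ⟨B, _, h2⟩
  · simp at h2
  · change ((appW nets W B) ^^^ B).testBit x = true at h2
    rw [Nat.testBit_xor, appW_testBit h, ← ev_apply h W x, hx] at h2
    simp at h2

/-- a bound for the number of fixed points of a word. -/
theorem fix_bound (h : netsOK N nets = true) (Bs : List ℕ) (W : List ℕ) {f : ℕ}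
    (hc : Nat.ble N (Nat.add f (cnt N (mv nets Bs W))) = true) (S : Set (Fin N))
    (hS : ∀ x ∈ S, ev (gens N nets) W x = x) : S.ncard ≤ f := by
  set D := mv nets Bs W with hD
  rw [Nat.ble_eq, cnt_eq] at hc
  have hc' : N ≤ f + ((Finset.range N).filter fun p => D.testBit p = true).card := hc
  have h1 := Finset.card_filter_add_card_filter_not (s := Finset.range N) (fun p => D.testBit p = true)
  rw [Finset.card_range] at h1
  have hsub : (Fin.val '' S) ⊆ ↑((Finset.range N).filter fun p => ¬ (D.testBit p = true)) := by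
    rintro _ ⟨x, hx, rfl⟩
    rw [Finset.coe_filter]
    refine ⟨Finset.mem_range.2 x.2, ?_⟩
    rw [mv_spec h Bs W x (hS x hx)]
    simp
  have h2 := Set.ncard_le_ncard hsub (Finset.finite_toSet _)
  rw [Set.ncard_image_of_injective _ Fin.val_injective, Set.ncard_coe_finset] at h2
  omega

/-- the centraliser acts on the fixed points. -/
theorem cent_orbit (C : Subgroup (Equiv.Perm (Fin N))) (ζ : Equiv.Perm (Fin N))
    (hC : C ≤ Subgroup.centralizer {ζ}) (x0 : Fin N) (h0 : ζ x0 = x0) (f : ℕ)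
    (hf : ∀ S : Set (Fin N), (∀ x ∈ S, ζ x = x) → S.ncard ≤ f) :
    Nat.card C ≤ f * Nat.card ↥(C ⊓ MulAction.stabilizer (Equiv.Perm (Fin N)) x0) := by
  rw [← (MulAction.stabilizer C x0).index_mul_card, MulAction.index_stabilizer]
  apply Nat.mul_le_mul
  · apply hf
    rintro _ ⟨c, rfl⟩
    have hc : c.1 * ζ = ζ * c.1 := Subgroup.mem_centralizer_singleton_iff.1 (hC c.2)
    show ζ (c.1 x0) = c.1 x0
    calc ζ (c.1 x0) = (ζ * c.1) x0 := rfl
      _ = (c.1 * ζ) x0 := by rw [hc]
      _ = c.1 x0 := by rw [Equiv.Perm.mul_apply, h0]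
  · apply Nat.card_le_card_of_injective
      (fun c : MulAction.stabilizer C x0 => (⟨c.1.1, c.1.2, c.2⟩ : ↥(C ⊓ MulAction.stabilizer (Equiv.Perm (Fin N)) x0)))
    intro c c' e
    have e1 : c.1.1 = c'.1.1 :=
      congrArg (fun y : ↥(C ⊓ MulAction.stabilizer (Equiv.Perm (Fin N)) x0) => y.1) e
    exact Subtype.ext (Subtype.ext e1)

end perm

end Cfsg.Agent.Lib.Helper88.TC
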