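import Cfsg.Agent.Lib.Helper88.HCLem
import Cfsg.Agent.Lib.Helper88.HCData

/-!
Kernel computations for the centraliser of a transvection in `SL(5,2)`.
-/

set_option autoImplicit false
set_option maxRecDepth 1000000

namespace Cfsg.Agent.Lib.Helper88.HC
open TC

theorem rels_let : ∀ W ∈ rels, ∀ l ∈ W, l < 2 * 13 := by decide +kernel

/-- the vector with a given code. -/
def dec (x : ℕ) : Fin 5 → ZMod 2 := fun i => if x.testBit i then 1 else 0

theorem dec_inj : ∀ x y : Fin 32, dec x = dec y → x = y := by decide +kernel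

/-- the positions of the root elements. -/
def rt : List (Fin 5 × Fin 5) :=
  [(0,1),(2,1),(3,1),(4,1),(0,2),(3,2),(4,2),(0,3),(2,3),(4,3),(0,4),(2,4),(3,4),(1,0),(2,0),(3,0),(4,0),(1,2),(1,3),(1,4)]

theorem bridge : ∀ k : Fin 20, (rt.getD k (0, 0)).1 ≠ (rt.getD k (0, 0)).2 ∧ ∀ x : Fin 32, ∀ a : Fin 5,
    dec x a + (if a = (rt.getD k (0, 0)).1 then dec x (rt.getD k (0, 0)).2 else 0) =
      dec (posn (nth [] nets k) x) a := by
  decide +kernel

theorem len_nets : nets.length = 20 := by decide +kernel

theorem conjS_ok : chainOK (fun W => fpr nets 32 XS (cw 0 W)) conjS 0 = true := by decide +kernel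

theorem conjS_len : conjS.length = 465 := by decide +kernel

theorem commS_ok : relsOK nets Bs ((List.range 13).map fun k => [0, 2 * k, 1, 2 * k + 1]) = true := by decide +kernel

end Cfsg.Agent.Lib.Helper88.HC
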