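import Cfsg.Agent.Lib.Helper88.HePData
import Cfsg.Agent.Lib.Helper88.Sp4Data

set_option autoImplicit false
set_option maxRecDepth 1000000
set_option maxHeartbeats 0

namespace Cfsg.Agent.Lib.Helper88.HeP
open TC

theorem relS_ok : relsOK nets Bs Sp4.rels = true := by decide +kernel

theorem relH_ok : relsOK nets Bs relsH = true := by decide +kernel

theorem relQ_ok : relsOK nets Bs relsQ = true := by decide +kernel

theorem relD_ok : relsOK nets Bs relsD = true := by decide +kernel

theorem relU_ok : relOK nets Bs (rep 7 [36,34,32,40] ++ [29]) = true := by decide +kernel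

theorem fixN : fixOK nets 14 0 0 = true := by decide +kernel

theorem fixT : fixOK nets 14 14 8 = true := by decide +kernel

theorem orbN : Nat.ble 2 (cnt 2058 (orb nets (lets 14 0) [0] 8)) = true := by decide +kernel

theorem tr_ok : Nat.beq (orb nets (lets 22 15) [40,42,32,34,32,36,38,34,40,32,42,38,34,42,36,32,34,38,40,32,34,42,40,38] 0) (fullN 2058) = true := by decide +kernel

end Cfsg.Agent.Lib.Helper88.HeP
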