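import Cfsg.Agent.Lib.Helper88.Sp4Data

set_option autoImplicit false
set_option maxRecDepth 1000000
set_option maxHeartbeats 0

namespace Cfsg.Agent.Lib.Helper88.Sp4
open TC

noncomputable def st2 : List (ℕ × ℕ × List ℕ) := parse (unpI 256 [0x380302b00000380302800000380202600000280100c00000280100b00000380082600000300000280100a000003800827000002801009000003801808000003801807000002801806000002800829000002800828000002800826000003800808000002800807000003800806000001800005000001805800000001805000])

theorem par2 : parOK 5 31 4 6 rels = true := by decide +kernel

theorem fin2 : finOK 5 31 14 4 3 (run 5 31 14 4 rels st2 (initS 5 14 6)) = true := by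
  decide +kernel

theorem fix2 : fixOK nets 14 6 2 = true := by decide +kernel

theorem orb2 : Nat.ble 3 (cnt 85 (orb nets (lets 14 4) [10,10] 2)) = true := by decide +kernel

end Cfsg.Agent.Lib.Helper88.Sp4
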