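import Cfsg.Agent.Lib.Helper88.Sp4Data

set_option autoImplicit false
set_option maxRecDepth 1000000
set_option maxHeartbeats 0

namespace Cfsg.Agent.Lib.Helper88.Sp4
open TC

noncomputable def st4 : List (ℕ × ℕ × List ℕ) := parse (unpI 256 [0x280100c00000380000b00000380081500000380081400000380181200000280081100000180080c00000280000b00000180a80000000180a000])

theorem par4 : parOK 5 31 10 12 rels = true := by decide +kernel

theorem fin4 : finOK 5 31 14 10 3 (run 5 31 14 10 rels st4 (initS 5 14 12)) = true := by
  decide +kernel

theorem fix4 : fixOK nets 14 12 6 = true := by decide +kernel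

theorem orb4 : Nat.ble 3 (cnt 85 (orb nets (lets 14 10) [20,20] 6)) = true := by decide +kernel

end Cfsg.Agent.Lib.Helper88.Sp4
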