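import Cfsg.Agent.Lib.Helper88.Sp4Data

set_option autoImplicit false
set_option maxRecDepth 1000000
set_option maxHeartbeats 0

namespace Cfsg.Agent.Lib.Helper88.Sp4
open TC

noncomputable def st5 : List (ℕ × ℕ × List ℕ) := parse (unpI 256 [0x380081000000480081000000200000180080f00000180080e00000280d00000000180d00000000180c000])

theorem par5 : parOK 5 31 12 14 rels = true := by decide +kernel

theorem fin5 : finOK 5 31 14 12 4 (run 5 31 14 12 rels st5 (initS 5 14 14)) = true := by
  decide +kernel

theorem fix5 : fixOK nets 14 14 21 = true := by decide +kernel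

theorem orb5 : Nat.ble 4 (cnt 85 (orb nets (lets 14 12) [24,26] 21)) = true := by decide +kernel

end Cfsg.Agent.Lib.Helper88.Sp4
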