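import Cfsg.Agent.Lib.Helper88.Sp4Data

set_option autoImplicit false
set_option maxRecDepth 1000000
set_option maxHeartbeats 0

namespace Cfsg.Agent.Lib.Helper88.Sp4
open TC

def pd : PD := [
  ([3,3], 22, [4,6,10,16,10,4], [0,5,11,5,7,0,11,5,27,7,11]),
  ([2], 76, [4,6,8,14,10,16,18,4], [0,0,5,7,11,0,15,7,0,0])]

def Zs : List (List ℕ) := [
  [2,4],
  [2],
  [2],
  [2,15],
  [2],
  [2,21],
  [2],
  [3],
  [2],
  [3,5],
  [3],
  [2,8],
  [2,4],
  [2,2]]

theorem tr_ok : Nat.beq (orb nets (lets 14 0) [2,0,2,4,10,6,0,8,4] 0) (fullN 85) = true := by decide +kernel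

theorem prim_ok : primOK nets 85 14 2 0 pd = true := by decide +kernel

theorem simp_ok : simpOK nets Bs 14 17 Zs = true := by decide +kernel

end Cfsg.Agent.Lib.Helper88.Sp4
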