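import Cfsg.Agent.Lib.Helper88.TCWord

/-!
Permutations of `Fin N` given as products of "delta swaps" (switching networks).  Such a permutation acts on the subsets
of `Fin N`, which are numbers with `N` bits, by a few operations with big numbers; therefore the kernel can check
relators and compute orbits quickly.
-/

set_option autoImplicit false

namespace Cfsg.Agent.Lib.Helper88.TC

def sw2 (X t s : ℕ) : ℕ := Nat.xor (Nat.xor X t) (Nat.shiftLeft t s)

/-- exchange the bits `j` and `j + s` of `X` for all the bits `j` of `M`. -/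
def sw (M s X : ℕ) : ℕ := sw2 X (Nat.land (Nat.xor (Nat.shiftRight X s) X) M) s

/-- the corresponding involution of the positions. -/
def tau (M s j : ℕ) : ℕ := if M.testBit j then j + s else if s ≤ j ∧ M.testBit (j - s) then j - s else j

/-- apply the stages of a network, the head first. -/
noncomputable def app (net : List (ℕ × ℕ)) : ℕ → ℕ :=
  List.rec (fun X => X) (fun st _ ih X => frc (sw st.1 st.2 X) ih) net

/-- the map of the positions belonging to a network. -/
def posn : List (ℕ × ℕ) → ℕ → ℕ
  | [], j => j
  | st :: r, j => tau st.1 st.2 (posn r j)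

def stOK (N : ℕ) (st : ℕ × ℕ) : Bool :=
  Nat.beq (Nat.land st.1 (Nat.shiftLeft st.1 st.2)) 0 && Nat.blt (Nat.shiftLeft st.1 st.2) (Nat.pow 2 N)

def netOK (N : ℕ) (net : List (ℕ × ℕ)) : Bool := net.all (stOK N)

theorem stOK_spec {N : ℕ} {st : ℕ × ℕ} (h : stOK N st = true) :
    (∀ j, st.1.testBit j = true → ¬ (st.2 ≤ j ∧ st.1.testBit (j - st.2) = true)) ∧
      (∀ j, st.1.testBit j = true → j + st.2 < N) := by
  rw [stOK, Bool.and_eq_true, Nat.beq_eq, Nat.blt_eq] at h
  obtain ⟨h1, h2⟩ := h
  change st.1 &&& (st.1 <<< st.2) = 0 at h1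
  change st.1 <<< st.2 < 2 ^ N at h2
  constructor
  · rintro j hj ⟨h3, h4⟩
    have := congrArg (fun z => Nat.testBit z j) h1
    simp only [Nat.testBit_and, Nat.testBit_shiftLeft, Nat.zero_testBit, hj, h4] at this
    simp [h3] at this
  · intro j hj
    by_contra hlt
    have h3 : (st.1 <<< st.2).testBit (j + st.2) = false :=
      Nat.testBit_lt_two_pow (lt_of_lt_of_le h2 (Nat.pow_le_pow_right (by norm_num) (not_lt.1 hlt)))
    rw [Nat.testBit_shiftLeft] at h3
    simp [hj] at h3

theorem sw_testBit {M s : ℕ} (h : ∀ j, M.testBit j = true → ¬ (s ≤ j ∧ M.testBit (j - s) = true)) (X j : ℕ) :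
    (sw M s X).testBit j = X.testBit (tau M s j) := by
  show ((X ^^^ (((X >>> s) ^^^ X) &&& M)) ^^^ ((((X >>> s) ^^^ X) &&& M) <<< s)).testBit j = _
  simp only [Nat.testBit_xor, Nat.testBit_and, Nat.testBit_shiftLeft, Nat.testBit_shiftRight]
  unfold tau
  by_cases h1 : M.testBit j = true
  · have h2 := h j h1
    rw [if_pos h1, h1]
    by_cases h3 : s ≤ j
    · have h4 : M.testBit (j - s) = false := by
        by_contra h5
        exact h2 ⟨h3, by simpa using h5⟩
      simp only [h4, Nat.add_comm j s, Bool.and_true, Bool.and_false, Bool.xor_false]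
      cases X.testBit j <;> cases X.testBit (s + j) <;> rfl
    · simp only [h3, Nat.add_comm j s, Bool.and_true, decide_false, Bool.false_and, Bool.xor_false, ge_iff_le]
      cases X.testBit j <;> cases X.testBit (s + j) <;> rfl
  · rw [if_neg h1]
    have h1' : M.testBit j = false := by simpa using h1
    by_cases h2 : s ≤ j ∧ M.testBit (j - s) = true
    · rw [if_pos h2, h1', h2.2]
      have h3 : s + (j - s) = j := by omega
      simp [h2.1, h3]
    · rw [if_neg h2, h1']
      by_cases h3 : s ≤ j
      · have h4 : M.testBit (j - s) = false := by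
          by_contra h5
          exact h2 ⟨h3, by simpa using h5⟩
        simp [h4]
      · simp [h3]

theorem tau_tau {M s : ℕ} (h : ∀ j, M.testBit j = true → ¬ (s ≤ j ∧ M.testBit (j - s) = true)) (j : ℕ) :
    tau M s (tau M s j) = j := by
  by_cases h1 : M.testBit j = true
  · have e : tau M s j = j + s := by rw [tau, if_pos h1]
    rw [e, tau]
    have h2 : ¬ M.testBit (j + s) = true := by
      intro h3
      exact h (j + s) h3 ⟨by omega, by rwa [Nat.add_sub_cancel]⟩
    rw [if_neg h2, if_pos ⟨by omega, by rwa [Nat.add_sub_cancel]⟩, Nat.add_sub_cancel]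
  · by_cases h2 : s ≤ j ∧ M.testBit (j - s) = true
    · have e : tau M s j = j - s := by rw [tau, if_neg h1, if_pos h2]
      rw [e, tau, if_pos h2.2]
      omega
    · have e : tau M s j = j := by rw [tau, if_neg h1, if_neg h2]
      rw [e, e]

theorem tau_lt {N M s : ℕ} (h : ∀ j, M.testBit j = true → j + s < N) {j : ℕ} (hj : j < N) : tau M s j < N := by
  unfold tau
  split_ifs with h1 h2
  · exact h j h1
  · omega
  · exact hj

theorem app_nil (X : ℕ) : app [] X = X := rfl

theorem app_cons (st : ℕ × ℕ) (r : List (ℕ × ℕ)) (X : ℕ) : app (st :: r) X = app r (sw st.1 st.2 X) := by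
  have e : app (st :: r) X = frc (sw st.1 st.2 X) (app r) := rfl
  rw [e, frc_eq]

theorem netOK_cons {N : ℕ} {st : ℕ × ℕ} {r : List (ℕ × ℕ)} (h : netOK N (st :: r) = true) :
    stOK N st = true ∧ netOK N r = true := by
  rw [netOK, List.all_cons, Bool.and_eq_true] at h
  exact h

theorem app_testBit {N : ℕ} (net : List (ℕ × ℕ)) (h : netOK N net = true) :
    ∀ X j, (app net X).testBit j = X.testBit (posn net j) := by
  induction net with
  | nil => intro X j; rfl
  | cons st r ih =>
    intro X j
    obtain ⟨h1, h2⟩ := netOK_cons h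
    rw [app_cons, ih h2, sw_testBit (stOK_spec h1).1, posn]

theorem posn_lt {N : ℕ} (net : List (ℕ × ℕ)) (h : netOK N net = true) {j : ℕ} (hj : j < N) : posn net j < N := by
  induction net with
  | nil => exact hj
  | cons st r ih =>
    obtain ⟨h1, h2⟩ := netOK_cons h
    rw [posn]
    exact tau_lt (stOK_spec h1).2 (ih h2)

theorem posn_append (a b : List (ℕ × ℕ)) (j : ℕ) : posn (a ++ b) j = posn a (posn b j) := by
  induction a with
  | nil => rfl
  | cons st r ih => rw [List.cons_append, posn, posn, ih]

theorem netOK_reverse {N : ℕ} {net : List (ℕ × ℕ)} (h : netOK N net = true) : netOK N net.reverse = true := by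
  rw [netOK, List.all_eq_true] at h ⊢
  intro st hst
  exact h st (List.mem_reverse.1 hst)

theorem posn_reverse {N : ℕ} (net : List (ℕ × ℕ)) (h : netOK N net = true) (j : ℕ) :
    posn net.reverse (posn net j) = j := by
  induction net with
  | nil => rfl
  | cons st r ih =>
    obtain ⟨h1, h2⟩ := netOK_cons h
    rw [List.reverse_cons, posn_append, posn, posn, posn, tau_tau (stOK_spec h1).1, ih h2]

/-- the permutation belonging to a network. -/
noncomputable def gp (N : ℕ) (net : List (ℕ × ℕ)) : Equiv.Perm (Fin N) :=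
  if h : netOK N net = true then
    { toFun := fun j => ⟨posn net j, posn_lt net h j.2⟩
      invFun := fun j => ⟨posn net.reverse j, posn_lt _ (netOK_reverse h) j.2⟩
      left_inv := fun j => Fin.ext (posn_reverse net h j)
      right_inv := fun j => Fin.ext (by
        have := posn_reverse net.reverse (netOK_reverse h) j
        rwa [List.reverse_reverse] at this) }
  else 1

theorem gp_apply {N : ℕ} {net : List (ℕ × ℕ)} (h : netOK N net = true) (j : Fin N) :
    ((gp N net j : Fin N) : ℕ) = posn net j := by
  rw [gp, dif_pos h]; rfl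

theorem gp_inv_apply {N : ℕ} {net : List (ℕ × ℕ)} (h : netOK N net = true) (j : Fin N) :
    (((gp N net)⁻¹ j : Fin N) : ℕ) = posn net.reverse j := by
  rw [gp, dif_pos h]; rfl

/-- the list of the generators. -/
noncomputable def gens (N : ℕ) (nets : List (List (ℕ × ℕ))) : List (Equiv.Perm (Fin N)) := nets.map (gp N)

/-- the network of a letter. -/
noncomputable def nl (nets : List (List (ℕ × ℕ))) (l : ℕ) : List (ℕ × ℕ) :=
  nz (Nat.mod l 2) (nth [] nets (Nat.div l 2)) (nth [] nets (Nat.div l 2)).reverse

def netsOK (N : ℕ) (nets : List (List (ℕ × ℕ))) : Bool := nets.all (netOK N)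

variable {N : ℕ} {nets : List (List (ℕ × ℕ))}

theorem nl_even (k : ℕ) : nl nets (2 * k) = nth [] nets k := by
  have h1 : Nat.mod (2 * k) 2 = 0 := by show 2 * k % 2 = 0; omega
  have h2 : Nat.div (2 * k) 2 = k := by show 2 * k / 2 = k; omega
  rw [nl, h1, h2]; rfl

theorem nl_odd (k : ℕ) : nl nets (2 * k + 1) = (nth [] nets k).reverse := by
  have h1 : Nat.mod (2 * k + 1) 2 = 1 := by show (2 * k + 1) % 2 = 1; omega
  have h2 : Nat.div (2 * k + 1) 2 = k := by show (2 * k + 1) / 2 = k; omega
  rw [nl, h1, h2]; rfl

theorem nth_netOK (h : netsOK N nets = true) (k : ℕ) : netOK N (nth [] nets k) = true := by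
  rcases nth_mem_or [] nets k with h1 | h1
  · rw [netsOK, List.all_eq_true] at h
    exact h _ h1
  · rw [h1]; rfl

theorem nl_netOK (h : netsOK N nets = true) (l : ℕ) : netOK N (nl nets l) = true := by
  rcases Nat.even_or_odd' l with ⟨k, rfl | rfl⟩
  · rw [nl_even]; exact nth_netOK h k
  · rw [nl_odd]; exact netOK_reverse (nth_netOK h k)

theorem gens_getD (k : ℕ) : (gens N nets).getD k 1 = gp N (nth [] nets k) := by
  rw [gens, nth_eq_getD]
  by_cases hk : k < nets.length
  · rw [List.getD_eq_getElem _ _ (by simpa using hk), List.getD_eq_getElem _ _ hk, List.getElem_map]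
  · rw [List.getD_eq_default _ _ (by simpa using hk), List.getD_eq_default _ _ (by simpa using hk)]
    ext j
    rw [gp_apply (by rfl)]
    rfl

theorem lt_apply (h : netsOK N nets = true) (l : ℕ) (j : Fin N) :
    ((lt (gens N nets) l j : Fin N) : ℕ) = posn (nl nets l) j := by
  rcases Nat.even_or_odd' l with ⟨k, rfl | rfl⟩
  · rw [lt_even, gens_getD, gp_apply (nth_netOK h k), nl_even]
  · rw [lt_odd, gens_getD, gp_inv_apply (nth_netOK h k), nl_odd]

/-- the image of a point under a word. -/
noncomputable def trP (nets : List (List (ℕ × ℕ))) : List ℕ → ℕ → ℕ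
  | [], j => j
  | l :: r, j => trP nets r (posn (nl nets l) j)

theorem ev_apply (h : netsOK N nets = true) (W : List ℕ) (j : Fin N) :
    ((ev (gens N nets) W j : Fin N) : ℕ) = trP nets W j := by
  induction W generalizing j with
  | nil => rfl
  | cons l r ih => rw [ev, Equiv.Perm.mul_apply, ih, trP, lt_apply h]

theorem trP_lt (h : netsOK N nets = true) (W : List ℕ) {j : ℕ} (hj : j < N) : trP nets W j < N := by
  have := ev_apply h W ⟨j, hj⟩
  rw [← this]
  exact Fin.isLt _

/-- apply a list of networks, the head first. -/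
noncomputable def appL (ns : List (List (ℕ × ℕ))) : ℕ → ℕ :=
  List.rec (fun X => X) (fun n _ ih X => frc (app n X) ih) ns

theorem appL_cons (n : List (ℕ × ℕ)) (r : List (List (ℕ × ℕ))) (X : ℕ) : appL (n :: r) X = appL r (app n X) := by
  have e : appL (n :: r) X = frc (app n X) (appL r) := rfl
  rw [e, frc_eq]

theorem appL_append (a b : List (List (ℕ × ℕ))) : ∀ X, appL (a ++ b) X = appL b (appL a X) := by
  induction a with
  | nil => intro X; rfl
  | cons n r ih => intro X; rw [List.cons_append, appL_cons, appL_cons, ih]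

/-- the preimage of a set of points under a word. -/
noncomputable def appW (nets : List (List (ℕ × ℕ))) (W : List ℕ) (X : ℕ) : ℕ := appL (mp (nl nets) W.reverse) X

theorem appW_testBit (h : netsOK N nets = true) (W : List ℕ) :
    ∀ X j, (appW nets W X).testBit j = X.testBit (trP nets W j) := by
  induction W with
  | nil => intro X j; rfl
  | cons l r ih =>
    intro X j
    have e : appW nets (l :: r) X = app (nl nets l) (appW nets r X) := by
      rw [appW, appW, mp_eq, mp_eq, List.reverse_cons, List.map_append, appL_append]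
      rw [List.map_cons, List.map_nil, appL_cons]
      rfl
    rw [e, app_testBit _ (nl_netOK h l), ih, trP]

/-! ### separating sets, relators -/

def bitv (B p : ℕ) : ℕ := Nat.land (Nat.shiftRight B p) 1

theorem bitv_eq (B p : ℕ) : bitv B p = (B.testBit p).toNat := by
  show (B >>> p) &&& 1 = _
  rw [Nat.toNat_testBit, Nat.and_one_is_mod, Nat.shiftRight_eq_div_pow]

noncomputable def code (Bs : List ℕ) (p : ℕ) : ℕ :=
  List.rec 0 (fun B _ ih => Nat.add (Nat.mul 2 ih) (bitv B p)) Bs

theorem code_congr (Bs : List ℕ) {p q : ℕ} (h : ∀ B ∈ Bs, B.testBit p = B.testBit q) : code Bs p = code Bs q := by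
  induction Bs with
  | nil => rfl
  | cons B r ih =>
    have e : ∀ x, code (B :: r) x = Nat.add (Nat.mul 2 (code r x)) (bitv B x) := fun _ => rfl
    rw [e, e, ih (fun B' hB' => h B' (List.mem_cons_of_mem _ hB')), bitv_eq, bitv_eq, h B List.mem_cons_self]

/-- the sets `Bs` separate the points. -/
noncomputable def sepOK (N : ℕ) (Bs : List ℕ) : Bool := alN (fun p => Nat.beq (code Bs p) p) N

theorem sepOK_spec {Bs : List ℕ} (h : sepOK N Bs = true) {p q : ℕ} (hp : p < N) (hq : q < N)
    (hB : ∀ B ∈ Bs, B.testBit p = B.testBit q) : p = q := by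
  have h1 := alN_spec h p hp
  have h2 := alN_spec h q hq
  rw [Nat.beq_eq] at h1 h2
  rw [← h1, ← h2]
  exact code_congr Bs hB

/-- the word `W` is the identity. -/
noncomputable def relOK (nets : List (List (ℕ × ℕ))) (Bs : List ℕ) (W : List ℕ) : Bool :=
  al (fun B => Nat.beq (appW nets W B) B) Bs

theorem relOK_spec (h : netsOK N nets = true) {Bs : List ℕ} (hs : sepOK N Bs = true) {W : List ℕ}
    (hW : relOK nets Bs W = true) : ev (gens N nets) W = 1 := by
  ext j
  rw [ev_apply h, Equiv.Perm.one_apply]
  apply sepOK_spec hs (trP_lt h W j.2) j.2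
  intro B hB
  have h1 := al_spec hW B hB
  rw [Nat.beq_eq] at h1
  rw [← appW_testBit h, h1]

noncomputable def relsOK (nets : List (List (ℕ × ℕ))) (Bs : List ℕ) (rels : List (List ℕ)) : Bool :=
  al (relOK nets Bs) rels

theorem relsOK_spec (h : netsOK N nets = true) {Bs : List ℕ} (hs : sepOK N Bs = true) {rels : List (List ℕ)}
    (hW : relsOK nets Bs rels = true) : ∀ W ∈ rels, ev (gens N nets) W = 1 :=
  fun W hm => relOK_spec h hs (al_spec hW W hm)

/-! ### orbits -/

/-- add the preimage under the word number `i`. -/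
noncomputable def orb1 (nets : List (List (ℕ × ℕ))) (Ws : List (List ℕ)) (D i : ℕ) : ℕ :=
  frc (Nat.lor D (appW nets (nth [] Ws i) D)) fun x => x

noncomputable def orb (nets : List (List (ℕ × ℕ))) (Ws : List (List ℕ)) (is : List ℕ) (β : ℕ) : ℕ :=
  fl (orb1 nets Ws) is (Nat.pow 2 β)

theorem orb_spec (h : netsOK N nets = true) {Ws : List (List ℕ)} (S : Subgroup (Equiv.Perm (Fin N)))
    (hS : ∀ W ∈ Ws, ev (gens N nets) W ∈ S) (is : List ℕ) (b : Fin N) :
    ∀ p, (orb nets Ws is b).testBit p = true → ∃ g ∈ S, ((g b : Fin N) : ℕ) = p := by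
  apply fl_inv (orb1 nets Ws) (fun D => ∀ p, D.testBit p = true → ∃ g ∈ S, ((g b : Fin N) : ℕ) = p)
  · intro D i hD p hp
    rw [orb1, frc_eq] at hp
    change (D ||| appW nets (nth [] Ws i) D).testBit p = true at hp
    rw [Nat.testBit_or, Bool.or_eq_true, appW_testBit h] at hp
    rcases hp with hp | hp
    · exact hD p hp
    · obtain ⟨g, hg, e⟩ := hD _ hp
      have hmem : ev (gens N nets) (nth [] Ws i) ∈ S := by
        rcases nth_mem_or [] Ws i with h1 | h1
        · exact hS _ h1
        · rw [h1]; exact S.one_mem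
      by_cases hpN : p < N
      · refine ⟨(ev (gens N nets) (nth [] Ws i))⁻¹ * g, S.mul_mem (S.inv_mem hmem) hg, ?_⟩
        have e2 : g b = ev (gens N nets) (nth [] Ws i) ⟨p, hpN⟩ := by
          apply Fin.ext
          rw [e, ev_apply h]
        rw [Equiv.Perm.mul_apply, e2]; simp
      · -- positions outside are not moved into the range
        exfalso
        have hlt : trP nets (nth [] Ws i) p < N := by rw [← e]; exact Fin.isLt _
        -- apply the inverse permutation
        set q : Fin N := (ev (gens N nets) (nth [] Ws i))⁻¹ ⟨_, hlt⟩ with hq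
        have h3 : trP nets (nth [] Ws i) q = trP nets (nth [] Ws i) p := by
          rw [← ev_apply h, hq]; simp
        have hinj : ∀ (W : List ℕ) (x y : ℕ), trP nets W x = trP nets W y → x = y := by
          intro W
          induction W with
          | nil => intro x y e; exact e
          | cons l r ih =>
            intro x y e
            rw [trP, trP] at e
            have e' := ih _ _ e
            have := congrArg (posn (nl nets l).reverse) e'
            rwa [posn_reverse _ (nl_netOK h l), posn_reverse _ (nl_netOK h l)] at this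
        have := hinj _ _ _ h3
        exact hpN (by rw [← this]; exact q.2)
  · intro p hp
    change (2 ^ (b : ℕ)).testBit p = true at hp
    rw [Nat.testBit_two_pow, decide_eq_true_eq] at hp
    exact ⟨1, S.one_mem, by rw [Equiv.Perm.one_apply]; exact hp⟩

/-- the word `W` maps the point `x` to the point `y`. -/
noncomputable def mapsOK (nets : List (List (ℕ × ℕ))) (W : List ℕ) (x y : ℕ) : Bool :=
  Nat.beq (bitv (appW nets W (Nat.pow 2 y)) x) 1

theorem mapsOK_spec (h : netsOK N nets = true) {W : List ℕ} {x y : ℕ} (hm : mapsOK nets W x y = true) :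
    trP nets W x = y := by
  rw [mapsOK, Nat.beq_eq, bitv_eq, appW_testBit h] at hm
  change ((2 ^ y).testBit (trP nets W x)).toNat = 1 at hm
  rw [Nat.testBit_two_pow] at hm
  by_contra hne
  rw [decide_eq_false (fun e => hne e.symm)] at hm
  simp at hm

/-- the number of elements of a set of points. -/
noncomputable def cnt (N D : ℕ) : ℕ := Nat.rec 0 (fun p ih => Nat.add ih (bitv D p)) N

theorem cnt_eq (D : ℕ) : ∀ N, cnt N D = ((Finset.range N).filter fun p => D.testBit p = true).card := by
  intro N
  induction N with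
  | zero => rfl
  | succ n ih =>
    have e : cnt (n + 1) D = Nat.add (cnt n D) (bitv D n) := rfl
    rw [e, ih, bitv_eq, Finset.range_add_one, Finset.filter_insert]
    by_cases hb : D.testBit n = true
    · rw [if_pos hb, Finset.card_insert_of_notMem (by simp), hb]; rfl
    · rw [if_neg hb]
      have : D.testBit n = false := by simpa using hb
      rw [this]; rfl

end Cfsg.Agent.Lib.Helper88.TC
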