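import Cfsg.Agent.Lib.Helper88.TCCore
import Cfsg.Agent.Lib.Helper88.TCNet

/-!
Exact orders of permutation groups given by networks: the upper bound comes from a coset enumeration certificate, the
lower bound from the length of an orbit.
-/

set_option autoImplicit false

namespace Cfsg.Agent.Lib.Helper88.TC

variable {N : ℕ} {nets : List (List (ℕ × ℕ))}

/-- the generators from `d'` on fix the point `β`. -/
noncomputable def fixOK (nets : List (List (ℕ × ℕ))) (ng d' β : ℕ) : Bool :=
  alN (fun k => Nat.blt k d' || Nat.beq (app (nth [] nets k) (Nat.pow 2 β)) (Nat.pow 2 β)) ng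

theorem fixOK_spec (h : netsOK N nets = true) {ng d' : ℕ} {b : Fin N} (hf : fixOK nets ng d' b = true) :
    ∀ g ∈ Kd (gens N nets) ng d', g b = b := by
  intro g hg
  have : Kd (gens N nets) ng d' ≤ MulAction.stabilizer (Equiv.Perm (Fin N)) b := by
    rw [Kd, Subgroup.closure_le]
    rintro g ⟨k, h1, h2, rfl⟩
    rw [SetLike.mem_coe, MulAction.mem_stabilizer_iff, Equiv.Perm.smul_def, gens_getD]
    apply Fin.ext
    rw [gp_apply (nth_netOK h k)]
    have h3 := alN_spec hf k h2
    rw [Bool.or_eq_true, Nat.blt_eq, Nat.beq_eq] at h3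
    have h4 := h3.resolve_left (by omega)
    have h5 := app_testBit _ (nth_netOK h k) (Nat.pow 2 b) b
    rw [h4] at h5
    change (2 ^ (b : ℕ)).testBit b = (2 ^ (b : ℕ)).testBit _ at h5
    rw [Nat.testBit_two_pow, Nat.testBit_two_pow] at h5
    simp only [decide_true] at h5
    exact (of_decide_eq_true h5.symm).symm
  exact this hg

/-- the words consisting of one letter from `2 d` on. -/
def lets (ng d : ℕ) : List (List ℕ) := (List.range (2 * ng)).map fun l => bif Nat.ble (2 * d) l then [l] else []

theorem lets_spec {Γ : Type*} [Group Γ] (Y : List Γ) (ng d : ℕ) : ∀ W ∈ lets ng d, ev Y W ∈ Kd Y ng d := by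
  intro W hW
  rw [lets, List.mem_map] at hW
  obtain ⟨l, hl, rfl⟩ := hW
  rw [List.mem_range] at hl
  cases hc : Nat.ble (2 * d) l with
  | false => exact Subgroup.one_mem _
  | true =>
    rw [Nat.ble_eq] at hc
    simp only [cond_true, ev, one_mul]
    exact lt_mem_Kd Y hc hl

/-- **The lower bound of a level.** -/
theorem level_ge (h : netsOK N nets = true) {ng d d' n : ℕ} (hdd : d ≤ d') {b : Fin N}
    (hf : fixOK nets ng d' b = true) {is : List ℕ}
    (ho : Nat.ble n (cnt N (orb nets (lets ng d) is b)) = true) :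
    n * Nat.card (Kd (gens N nets) ng d') ≤ Nat.card (Kd (gens N nets) ng d) := by
  set Y := gens N nets with hY
  set D := orb nets (lets ng d) is b with hD
  rw [Nat.ble_eq, cnt_eq] at ho
  have hspec := orb_spec h (Kd Y ng d) (lets_spec Y ng d) is b
  -- the orbit
  have h1 : n ≤ Nat.card (MulAction.orbit (Kd Y ng d) b) := by
    refine ho.trans ?_
    set F := (Finset.range N).filter fun p => D.testBit p = true with hF
    have hFm : ∀ p ∈ F, p < N ∧ D.testBit p = true := by
      intro p hp
      rw [hF, Finset.mem_filter, Finset.mem_range] at hp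
      exact hp
    let f : F → MulAction.orbit (Kd Y ng d) b := fun p => ⟨⟨p.1, (hFm p.1 p.2).1⟩, by
      obtain ⟨g, hg, e⟩ := hspec p.1 (hFm p.1 p.2).2
      exact ⟨⟨g, hg⟩, Fin.ext e⟩⟩
    have hf : Function.Injective f := by
      intro p q e
      have := congrArg (fun z => ((z.1 : Fin N) : ℕ)) e
      exact Subtype.ext this
    have := Nat.card_le_card_of_injective f hf
    rwa [Nat.card_eq_fintype_card, Fintype.card_coe] at this
  -- the stabiliser
  have h2 : Nat.card (Kd Y ng d') ≤ Nat.card (MulAction.stabilizer (Kd Y ng d) b) := by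
    let f : Kd Y ng d' → MulAction.stabilizer (Kd Y ng d) b := fun x =>
      ⟨⟨x.1, Kd_mono Y ng hdd x.2⟩, fixOK_spec h hf x.1 x.2⟩
    apply Nat.card_le_card_of_injective f
    intro x y e
    have := congrArg (fun z => ((z.1 : Kd Y ng d) : Equiv.Perm (Fin N))) e
    exact Subtype.ext this
  rw [← (MulAction.stabilizer (Kd Y ng d) b).index_mul_card, MulAction.index_stabilizer]
  exact Nat.mul_le_mul h1 h2

/-- **The order of a level.** -/
theorem level_eq (h : netsOK N nets = true) {ng d d' n w m : ℕ} {rels : List (List ℕ)}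
    (hp : parOK w m d d' rels = true)
    {S : ℕ × List ℕ} (hS : Good w m (gens N nets) (Kd (gens N nets) ng d') (Kd (gens N nets) ng d) S)
    (hfin : finOK w m ng d n S = true) {b : Fin N}
    (hf : fixOK nets ng d' b = true) {is : List ℕ}
    (ho : Nat.ble n (cnt N (orb nets (lets ng d) is b)) = true) :
    Nat.card (Kd (gens N nets) ng d) = n * Nat.card (Kd (gens N nets) ng d') :=
  le_antisymm (card_le hS hfin).2 (level_ge h (parOK_spec hp).2.2.2.1 hf ho)

/-- transitivity. -/
theorem trans_of (h : netsOK N nets = true) {Ws : List (List ℕ)} (S : Subgroup (Equiv.Perm (Fin N)))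
    (hS : ∀ W ∈ Ws, ev (gens N nets) W ∈ S) {is : List ℕ} {b : Fin N}
    (ho : Nat.beq (orb nets Ws is b) (Nat.pred (Nat.pow 2 N)) = true) (x : Fin N) : ∃ g ∈ S, g b = x := by
  rw [Nat.beq_eq] at ho
  have h1 : (orb nets Ws is b).testBit x = true := by
    rw [ho]
    show (2 ^ N - 1).testBit x = true
    rw [Nat.testBit_two_pow_sub_one]
    exact decide_eq_true x.2
  obtain ⟨g, hg, e⟩ := orb_spec h S hS is b x h1
  exact ⟨g, hg, Fin.ext e⟩

end Cfsg.Agent.Lib.Helper88.TC
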