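import Cfsg.Agent.Lib.Helper88.TCWord

/-!
A kernel-checkable certificate for coset enumeration: an upper bound for the index of the subgroup generated by the
last generators of a list in the subgroup generated by a longer final segment, valid in every group in which the given
relators hold.  The names of the cosets are `1, 2, ...`, the name `a` is stored as the number `w * a`, and the partial
coset table of a letter is a number consisting of fields of `w` bits (`0` = unknown).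
-/

set_option autoImplicit false

namespace Cfsg.Agent.Lib.Helper88.TC

/-- read a field. -/
def rd (m T x : ℕ) : ℕ := Nat.land (Nat.shiftRight T x) m

/-- write into an empty field. -/
def wr (T x v : ℕ) : ℕ := Nat.lor T (Nat.shiftLeft v x)

/-- follow a list of tables. -/
noncomputable def trT (m : ℕ) (Wt : List ℕ) : ℕ → ℕ :=
  List.rec (fun x => x) (fun T _ ih x => ih (rd m T x)) Wt

/-- the inverse letter. -/
noncomputable def fp (l : ℕ) : ℕ := nz (Nat.mod l 2) (Nat.succ l) (Nat.pred l)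

noncomputable def ded2 (m : ℕ) (s : ℕ × ℕ) (x y : ℕ) : ℕ × ℕ :=
  nz y s (nz (Nat.add (rd m s.1 y) (rd m s.2 x)) (wr s.1 y x, wr s.2 x y) s)

/-- one deduction: follow the tables from the name `a`; the pair consists of the tables of the first letter of the
relator and of its inverse. -/
noncomputable def ded1 (w m : ℕ) (Wt2 Wt1 : List ℕ) (s : ℕ × ℕ) (a : ℕ) : ℕ × ℕ :=
  ded2 m s (Nat.mul w a) (trT m Wt1 (trT m Wt2 (Nat.mul w a)))

/-- a new name for the image of `a` under the letter `l`. -/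
noncomputable def def1 (w m l : ℕ) (S : ℕ × List ℕ) (a : ℕ) : ℕ × List ℕ :=
  bif Nat.ble 1 a && Nat.ble a S.1 && Nat.ble (Nat.mul w (Nat.succ S.1)) m &&
      Nat.beq (rd m (nth 0 S.2 l) (Nat.mul w a)) 0 then
    (Nat.succ S.1, upd (upd S.2 l (wr (nth 0 S.2 l) (Nat.mul w a) (Nat.mul w (Nat.succ S.1)))) (fp l)
      (wr (nth 0 S.2 (fp l)) (Nat.mul w (Nat.succ S.1)) (Nat.mul w a)))
  else S

noncomputable def dedC (S : ℕ × List ℕ) (l0 : ℕ) (r : ℕ × ℕ) : ℕ × List ℕ :=
  (S.1, upd (upd S.2 l0 r.1) (fp l0) r.2)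

/-- a batch of deductions with the relator `W` rotated by `k`. -/
noncomputable def dedB (w m : ℕ) (S : ℕ × List ℕ) (W : List ℕ) (k : ℕ) (pts : List ℕ) : ℕ × List ℕ :=
  match drp W k with
  | [] => S
  | l0 :: W2 =>
    dedC S l0 (fl (ded1 w m (mp (nth 0 S.2) W2) (mp (nth 0 S.2) (tk W k))) pts (nth 0 S.2 l0, nth 0 S.2 (fp l0)))

/-- a step: `(0, l, pts)` gives new names to the images of the names `pts` under the letter `l`; `(r + 1, k, pts)` is a
batch of deductions. -/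
noncomputable def stp (w m ng d : ℕ) (rels : List (List ℕ)) (S : ℕ × List ℕ) (st : ℕ × ℕ × List ℕ) : ℕ × List ℕ :=
  match st with
  | (0, l, pts) => bif Nat.ble (2 * d) l && Nat.blt l (2 * ng) then fl (def1 w m l) pts S else S
  | (r + 1, k, pts) => dedB w m S (nth [] rels r) k pts

noncomputable def colOK (w m T : ℕ) : ℕ → Bool :=
  Nat.rec true (fun i ih => nz (rd m T (Nat.mul w (Nat.succ i))) false ih)

/-- the tables of the letters from `2 d` on are complete. -/
noncomputable def fullOK (w m ng d : ℕ) (S : ℕ × List ℕ) : Bool :=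
  alN (fun l => Nat.blt l (2 * d) || colOK w m (nth 0 S.2 l) S.1) (2 * ng)

/-- the initial state. -/
def initS (w ng d' : ℕ) : ℕ × List ℕ :=
  (1, (List.range (2 * ng)).map fun l => bif Nat.ble (2 * d') l then wr 0 (Nat.mul w 1) (Nat.mul w 1) else 0)

noncomputable def run (w m ng d : ℕ) (rels : List (List ℕ)) (steps : List (ℕ × ℕ × List ℕ)) (S : ℕ × List ℕ) :
    ℕ × List ℕ := fl (stp w m ng d rels) steps S

/-- the parameters are sensible. -/
def parOK (w m d d' : ℕ) (rels : List (List ℕ)) : Bool :=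
  Nat.beq (Nat.succ m) (Nat.pow 2 w) && Nat.ble w m && Nat.ble 1 w && Nat.ble d d' &&
    rels.all fun W => Nat.ble 2 W.length

/-- the final check. -/
noncomputable def finOK (w m ng d n : ℕ) (S : ℕ × List ℕ) : Bool := fullOK w m ng d S && Nat.ble S.1 n

/-! ### unpacking of certificates -/

/-- `c` items of 24 bits. -/
noncomputable def unpC (C : ℕ) (c : ℕ) (tl : List ℕ) : List ℕ :=
  Nat.rec (motive := fun _ => ℕ → List ℕ) (fun _ => tl)
    (fun _ ih C => Nat.land C 16777215 :: ih (Nat.shiftRight C 24)) c C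

noncomputable def unpI (c : ℕ) (Cs : List ℕ) : List ℕ := List.rec [] (fun C _ ih => unpC C c ih) Cs

noncomputable def ptsI (l : List ℕ) : List ℕ :=
  List.rec [] (fun x _ ih => nz (Nat.shiftRight x 23) (x :: ih) []) l

/-- items with bit 23 are headers (11 bits: kind, 12 bits: rotation or letter), the other ones are names; the item `0`
is ignored. -/
noncomputable def parse (l : List ℕ) : List (ℕ × ℕ × List ℕ) :=
  List.rec [] (fun x tl ih => nz (Nat.shiftRight x 23) ih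
    ((Nat.land x 2047, Nat.land (Nat.shiftRight x 11) 4095, ptsI tl) :: ih)) l

/-! ### fields -/

theorem rd_testBit (m T x j : ℕ) : (rd m T x).testBit j = (T.testBit (x + j) && m.testBit j) := by
  show ((T >>> x) &&& m).testBit j = _
  rw [Nat.testBit_and, Nat.testBit_shiftRight]

theorem wr_testBit (T x v i : ℕ) :
    (wr T x v).testBit i = (T.testBit i || (decide (x ≤ i) && v.testBit (i - x))) := by
  show (T ||| (v <<< x)).testBit i = _
  rw [Nat.testBit_or, Nat.testBit_shiftLeft]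

theorem rd_zero (m x : ℕ) : rd m 0 x = 0 := by
  apply Nat.eq_of_testBit_eq
  intro j
  rw [rd_testBit]
  simp

variable {w m : ℕ}

theorem rd_wr_same (hm : m = 2 ^ w - 1) {T x v : ℕ} (h0 : rd m T x = 0) (hv : v < 2 ^ w) :
    rd m (wr T x v) x = v := by
  apply Nat.eq_of_testBit_eq
  intro j
  rw [rd_testBit, wr_testBit, hm, Nat.testBit_two_pow_sub_one]
  by_cases hj : j < w
  · have h1 : T.testBit (x + j) = false := by
      have h2 := congrArg (fun z => Nat.testBit z j) h0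
      simp only [rd_testBit, hm, Nat.testBit_two_pow_sub_one, Nat.zero_testBit] at h2
      simpa [hj] using h2
    simp [hj, h1]
  · have h1 : v.testBit j = false :=
      Nat.testBit_lt_two_pow (lt_of_lt_of_le hv (Nat.pow_le_pow_right (by norm_num) (not_lt.1 hj)))
    simp [hj, h1]

theorem rd_wr_other (hm : m = 2 ^ w - 1) {T a b v : ℕ} (hv : v < 2 ^ w) (hab : a ≠ b) :
    rd m (wr T (w * a) v) (w * b) = rd m T (w * b) := by
  apply Nat.eq_of_testBit_eq
  intro j
  rw [rd_testBit, rd_testBit, wr_testBit, hm, Nat.testBit_two_pow_sub_one]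
  by_cases hj : j < w
  · have h1 : (decide (w * a ≤ w * b + j) && v.testBit (w * b + j - w * a)) = false := by
      rcases lt_or_gt_of_ne hab with h | h
      · have h2 : w * (a + 1) ≤ w * b := Nat.mul_le_mul_left w h
        rw [Nat.mul_succ] at h2
        have h3 : v.testBit (w * b + j - w * a) = false :=
          Nat.testBit_lt_two_pow (lt_of_lt_of_le hv (Nat.pow_le_pow_right (by norm_num) (by omega)))
        rw [h3, Bool.and_false]
      · have h2 : w * (b + 1) ≤ w * a := Nat.mul_le_mul_left w h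
        rw [Nat.mul_succ] at h2
        have h3 : ¬ (w * a ≤ w * b + j) := by omega
        simp [h3]
    rw [h1, Bool.or_false]
  · simp [hj]

/-! ### the inverse letter -/

theorem fp_even (k : ℕ) : fp (2 * k) = 2 * k + 1 := by
  have h : Nat.mod (2 * k) 2 = 0 := by show 2 * k % 2 = 0; omega
  rw [fp, h]; rfl

theorem fp_odd (k : ℕ) : fp (2 * k + 1) = 2 * k := by
  have h : Nat.mod (2 * k + 1) 2 = 1 := by show (2 * k + 1) % 2 = 1; omega
  rw [fp, h]; rfl

theorem fp_ne (l : ℕ) : fp l ≠ l := by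
  rcases Nat.even_or_odd' l with ⟨k, rfl | rfl⟩
  · rw [fp_even]; omega
  · rw [fp_odd]; omega

section sound
variable {Γ : Type*} [Group Γ]

theorem lt_fp (Y : List Γ) (l : ℕ) : lt Y (fp l) = (lt Y l)⁻¹ := by
  rcases Nat.even_or_odd' l with ⟨k, rfl | rfl⟩
  · rw [fp_even, lt_even, lt_odd]
  · rw [fp_odd, lt_even, lt_odd, inv_inv]

/-- the relation between cosets expressed by an entry of a table. -/
def Edge (Y : List Γ) (K : Subgroup Γ) (c : ℕ → Γ) (l a b : ℕ) : Prop := (c b)⁻¹ * lt Y l * c a ∈ K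

theorem edge_fp {Y : List Γ} {K : Subgroup Γ} {c : ℕ → Γ} {l a b : ℕ} (h : Edge Y K c l a b) :
    Edge Y K c (fp l) b a := by
  unfold Edge at h ⊢
  rw [lt_fp, ← K.inv_mem_iff]
  simpa [mul_assoc] using h

/-- the invariant of one table. -/
def TInv (w m : ℕ) (Y : List Γ) (K : Subgroup Γ) (c : ℕ → Γ) (cnt l T : ℕ) : Prop :=
  ∀ a, rd m T (w * a) ≠ 0 → (1 ≤ a ∧ a ≤ cnt) ∧
    ∃ b, 1 ≤ b ∧ b ≤ cnt ∧ rd m T (w * a) = w * b ∧ Edge Y K c l a b

variable {Y : List Γ} {K K1 : Subgroup Γ} {c : ℕ → Γ} {cnt : ℕ}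

theorem TInv.zero (l : ℕ) : TInv w m Y K c cnt l 0 := by
  intro a h
  exact absurd (rd_zero m _) h

theorem TInv.write (hm : m = 2 ^ w - 1) (hcap : w * cnt < 2 ^ w) {l T a b : ℕ} (h : TInv w m Y K c cnt l T)
    (ha : 1 ≤ a ∧ a ≤ cnt) (hb : 1 ≤ b ∧ b ≤ cnt) (h0 : rd m T (w * a) = 0) (he : Edge Y K c l a b) :
    TInv w m Y K c cnt l (wr T (w * a) (w * b)) := by
  have hv : w * b < 2 ^ w := lt_of_le_of_lt (Nat.mul_le_mul_left w hb.2) hcap
  intro a' hne
  by_cases e : a' = a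
  · subst e
    rw [rd_wr_same hm h0 hv]
    exact ⟨ha, b, hb.1, hb.2, rfl, he⟩
  · rw [rd_wr_other hm hv (Ne.symm e)] at hne ⊢
    exact h a' hne

theorem TInv.mono {c' : ℕ → Γ} {l T : ℕ} (h : TInv w m Y K c cnt l T) (hc : ∀ a, a ≤ cnt → c' a = c a) :
    TInv w m Y K c' (cnt + 1) l T := by
  intro a hne
  obtain ⟨⟨h1, h2⟩, b, h3, h4, h5, h6⟩ := h a hne
  refine ⟨⟨h1, by omega⟩, b, h3, by omega, h5, ?_⟩
  unfold Edge at h6 ⊢
  rw [hc a h2, hc b h4]
  exact h6

theorem trT_nil (x : ℕ) : trT m [] x = x := rfl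
theorem trT_cons (T : ℕ) (r : List ℕ) (x : ℕ) : trT m (T :: r) x = trT m r (rd m T x) := rfl

theorem trT_append (A B : List ℕ) : ∀ x, trT m (A ++ B) x = trT m B (trT m A x) := by
  induction A with
  | nil => intro x; rfl
  | cons T r ih => intro x; rw [List.cons_append, trT_cons, trT_cons, ih]

theorem trT_zero {Ts : List ℕ} (hT : ∀ l, TInv w m Y K c cnt l (nth 0 Ts l)) (W : List ℕ) :
    trT m (mp (nth 0 Ts) W) 0 = 0 := by
  induction W with
  | nil => rfl
  | cons l r ih =>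
    have e : mp (nth 0 Ts) (l :: r) = nth 0 Ts l :: mp (nth 0 Ts) r := rfl
    rw [e, trT_cons]
    have h0 : rd m (nth 0 Ts l) 0 = 0 := by
      by_contra hne
      have := hT l 0 (by rw [Nat.mul_zero]; exact hne)
      omega
    rw [h0, ih]

/-- following a word in the tables. -/
theorem scan {Ts : List ℕ} (hT : ∀ l, TInv w m Y K c cnt l (nth 0 Ts l)) (W : List ℕ) :
    ∀ a, trT m (mp (nth 0 Ts) W) (w * a) ≠ 0 → (W ≠ [] ∨ (1 ≤ a ∧ a ≤ cnt)) →
      (1 ≤ a ∧ a ≤ cnt) ∧ ∃ b, 1 ≤ b ∧ b ≤ cnt ∧ trT m (mp (nth 0 Ts) W) (w * a) = w * b ∧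
        (c b)⁻¹ * ev Y W * c a ∈ K := by
  induction W with
  | nil =>
    intro a _ h2
    have ha := h2.resolve_left (fun h => h rfl)
    exact ⟨ha, a, ha.1, ha.2, rfl, by simp [ev, K.one_mem]⟩
  | cons l r ih =>
    intro a h1 _
    have e : mp (nth 0 Ts) (l :: r) = nth 0 Ts l :: mp (nth 0 Ts) r := rfl
    rw [e, trT_cons] at h1 ⊢
    have hne : rd m (nth 0 Ts l) (w * a) ≠ 0 := by
      intro h0
      rw [h0] at h1
      exact h1 (trT_zero hT r)
    obtain ⟨ha, b, hb1, hb2, hb3, hb4⟩ := hT l a hne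
    rw [hb3] at h1 ⊢
    obtain ⟨_, b', h3, h4, h5, h6⟩ := ih b h1 (Or.inr ⟨hb1, hb2⟩)
    refine ⟨ha, b', h3, h4, h5, ?_⟩
    have := K.mul_mem h6 hb4
    rw [ev]
    convert this using 1
    group

/-- soundness of one deduction. -/
theorem ded1_sound (hm : m = 2 ^ w - 1) (hcap : w * cnt < 2 ^ w) {Ts : List ℕ}
    (hT : ∀ l, TInv w m Y K c cnt l (nth 0 Ts l)) {l0 : ℕ} {W2 W1 : List ℕ}
    (hrel : ev Y (l0 :: (W2 ++ W1)) = 1) (hne : W2 ++ W1 ≠ []) (s : ℕ × ℕ) (a : ℕ)
    (h : TInv w m Y K c cnt l0 s.1 ∧ TInv w m Y K c cnt (fp l0) s.2) :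
    TInv w m Y K c cnt l0 (ded1 w m (mp (nth 0 Ts) W2) (mp (nth 0 Ts) W1) s a).1 ∧
      TInv w m Y K c cnt (fp l0) (ded1 w m (mp (nth 0 Ts) W2) (mp (nth 0 Ts) W1) s a).2 := by
  have e1 : trT m (mp (nth 0 Ts) W1) (trT m (mp (nth 0 Ts) W2) (Nat.mul w a)) =
      trT m (mp (nth 0 Ts) (W2 ++ W1)) (w * a) := by
    rw [mp_eq, mp_eq, mp_eq, List.map_append, trT_append]; rfl
  rw [ded1, e1, ded2, nz_eq, nz_eq]
  split_ifs with h1 h2
  · exact h
  · obtain ⟨ha, b, hb1, hb2, hb3, hb4⟩ := scan hT (W2 ++ W1) a h1 (Or.inl hne)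
    rw [hb3] at h2 ⊢
    have h3 : rd m s.1 (w * b) = 0 ∧ rd m s.2 (w * a) = 0 := by
      have : rd m s.1 (w * b) + rd m s.2 (w * a) = 0 := h2
      omega
    have hE : Edge Y K c (fp l0) a b := by
      unfold Edge
      rw [lt_fp]
      rw [ev] at hrel
      have h4 : (lt Y l0)⁻¹ = ev Y (W2 ++ W1) := (eq_inv_of_mul_eq_one_left hrel).symm
      rw [h4]; exact hb4
    have hE' : Edge Y K c l0 b a := by
      have := edge_fp hE
      unfold Edge at this ⊢
      rw [lt_fp, lt_fp, inv_inv] at this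
      exact this
    exact ⟨h.1.write hm hcap ⟨hb1, hb2⟩ ha h3.1 hE', h.2.write hm hcap ha ⟨hb1, hb2⟩ h3.2 hE⟩
  · exact h

/-- the invariant of a state. -/
structure Inv (w m : ℕ) (Y : List Γ) (K K1 : Subgroup Γ) (c : ℕ → Γ) (S : ℕ × List ℕ) : Prop where
  one_le : 1 ≤ S.1
  cap : w * S.1 < 2 ^ w
  c1 : c 1 = 1
  mem : ∀ a, 1 ≤ a → a ≤ S.1 → c a ∈ K1
  tab : ∀ l, TInv w m Y K c S.1 l (nth 0 S.2 l)

theorem tab_upd2 {P : ℕ → ℕ → Prop} {Ts : List ℕ} (h : ∀ l, P l (nth 0 Ts l)) {l0 T1 T2 : ℕ} (h1 : P l0 T1)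
    (h2 : P (fp l0) T2) : ∀ l, P l (nth 0 (upd (upd Ts l0 T1) (fp l0) T2) l) := by
  intro l
  rcases nth_upd 0 (upd Ts l0 T1) (fp l0) T2 l with e | ⟨e1, e2⟩
  · rw [e]
    rcases nth_upd 0 Ts l0 T1 l with e | ⟨e1, e2⟩
    · rw [e]; exact h l
    · rw [e2, e1]; exact h1
  · rw [e2, e1]; exact h2

/-- the states for which an assignment of coset representatives exists. -/
def Good (w m : ℕ) (Y : List Γ) (K K1 : Subgroup Γ) (S : ℕ × List ℕ) : Prop := ∃ c, Inv w m Y K K1 c S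

theorem def1_sound (hm : m = 2 ^ w - 1) {l : ℕ} (hl : lt Y l ∈ K1) (S : ℕ × List ℕ) (a : ℕ)
    (h : Good w m Y K K1 S) : Good w m Y K K1 (def1 w m l S a) := by
  obtain ⟨c, I⟩ := h
  rw [def1]
  cases hc : (Nat.ble 1 a && Nat.ble a S.1 && Nat.ble (Nat.mul w (Nat.succ S.1)) m &&
      Nat.beq (rd m (nth 0 S.2 l) (Nat.mul w a)) 0) with
  | false => exact ⟨c, I⟩
  | true =>
    simp only [Bool.and_eq_true, Nat.ble_eq, Nat.beq_eq, Nat.mul_eq, Nat.succ_eq_add_one] at hc
    obtain ⟨⟨⟨ha1, ha2⟩, hcap⟩, h0⟩ := hc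
    simp only [cond_true, Nat.mul_eq, Nat.succ_eq_add_one]
    have hpos : 0 < 2 ^ w := by positivity
    have hcap' : w * (S.1 + 1) < 2 ^ w := by omega
    let c' : ℕ → Γ := Function.update c (S.1 + 1) (lt Y l * c a)
    have hc' : ∀ x, x ≤ S.1 → c' x = c x := fun x hx => Function.update_of_ne (by omega) _ _
    have hc'n : c' (S.1 + 1) = lt Y l * c a := Function.update_self _ _ _
    have hE : Edge Y K c' l a (S.1 + 1) := by
      unfold Edge
      rw [hc'n, hc' a ha2]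
      simp [K.one_mem, mul_assoc]
    have h0' : rd m (nth 0 S.2 (fp l)) (w * (S.1 + 1)) = 0 := by
      by_contra hne
      have := (I.tab (fp l) (S.1 + 1) hne).1.2
      omega
    refine ⟨c', ⟨?_, hcap', ?_, ?_, ?_⟩⟩
    · show 1 ≤ S.1 + 1
      omega
    · rw [hc' 1 I.one_le, I.c1]
    · intro x hx1 hx2
      change x ≤ S.1 + 1 at hx2
      rcases Nat.lt_or_ge S.1 x with h | h
      · have : x = S.1 + 1 := by omega
        rw [this, hc'n]
        exact K1.mul_mem hl (I.mem a ha1 ha2)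
      · rw [hc' x h]; exact I.mem x hx1 h
    · exact tab_upd2 (P := fun l T => TInv w m Y K c' (S.1 + 1) l T) (fun l' => (I.tab l').mono hc')
        (((I.tab l).mono hc').write hm hcap' ⟨ha1, by omega⟩ ⟨by omega, le_refl _⟩ h0 hE)
        (((I.tab (fp l)).mono hc').write hm hcap' ⟨by omega, le_refl _⟩ ⟨ha1, by omega⟩ h0' (edge_fp hE))

theorem dedB_sound (hm : m = 2 ^ w - 1) {W : List ℕ} (hW : W = [] ∨ (ev Y W = 1 ∧ 2 ≤ W.length)) (S : ℕ × List ℕ)
    (k : ℕ) (pts : List ℕ) (h : Good w m Y K K1 S) : Good w m Y K K1 (dedB w m S W k pts) := by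
  obtain ⟨c, I⟩ := h
  rw [dedB]
  split
  · exact ⟨c, I⟩
  · rename_i l0 W2 hd
    rw [drp_eq] at hd
    rw [tk_eq]
    rcases hW with hW | ⟨hW1, hW2⟩
    · rw [hW] at hd; simp at hd
    have hsplit : W = W.take k ++ l0 :: W2 := by rw [← hd, List.take_append_drop]
    have hrel : ev Y (l0 :: (W2 ++ W.take k)) = 1 := by
      rw [hsplit, ev_append] at hW1
      rw [ev, ev_append, mul_assoc]
      rw [ev] at hW1
      exact mul_eq_one_comm.1 hW1
    have hne : W2 ++ W.take k ≠ [] := by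
      intro e
      have h1 := congrArg List.length hsplit
      have h2 := congrArg List.length e
      simp only [List.length_append, List.length_cons, List.length_nil] at h1 h2
      omega
    have key := fl_inv (ded1 w m (mp (nth 0 S.2) W2) (mp (nth 0 S.2) (W.take k)))
      (fun s => TInv w m Y K c S.1 l0 s.1 ∧ TInv w m Y K c S.1 (fp l0) s.2)
      (fun s a hs => ded1_sound hm I.cap I.tab hrel hne s a hs) pts
      (nth 0 S.2 l0, nth 0 S.2 (fp l0)) ⟨I.tab l0, I.tab (fp l0)⟩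
    exact ⟨c, ⟨I.one_le, I.cap, I.c1, I.mem,
      tab_upd2 (P := fun l T => TInv w m Y K c S.1 l T) I.tab key.1 key.2⟩⟩

theorem stp_sound (hm : m = 2 ^ w - 1) {ng d : ℕ} {rels : List (List ℕ)}
    (hrel : ∀ W ∈ rels, ev Y W = 1 ∧ 2 ≤ W.length) (hK1 : ∀ l, 2 * d ≤ l → l < 2 * ng → lt Y l ∈ K1)
    (S : ℕ × List ℕ) (st : ℕ × ℕ × List ℕ) (h : Good w m Y K K1 S) :
    Good w m Y K K1 (stp w m ng d rels S st) := by
  obtain ⟨a, k, pts⟩ := st
  cases a with
  | zero =>
    simp only [stp]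
    cases hc : (Nat.ble (2 * d) k && Nat.blt k (2 * ng)) with
    | false => exact h
    | true =>
      simp only [Bool.and_eq_true, Nat.ble_eq, Nat.blt_eq] at hc
      exact fl_inv _ _ (fun s a hs => def1_sound hm (hK1 k hc.1 hc.2) s a hs) pts S h
  | succ r =>
    simp only [stp]
    apply dedB_sound hm _ S k pts h
    rcases nth_mem_or [] rels r with h1 | h1
    · exact Or.inr (hrel _ h1)
    · exact Or.inl h1

theorem run_sound (hm : m = 2 ^ w - 1) {ng d : ℕ} {rels : List (List ℕ)}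
    (hrel : ∀ W ∈ rels, ev Y W = 1 ∧ 2 ≤ W.length) (hK1 : ∀ l, 2 * d ≤ l → l < 2 * ng → lt Y l ∈ K1)
    (steps : List (ℕ × ℕ × List ℕ)) (S : ℕ × List ℕ) (h : Good w m Y K K1 S) :
    Good w m Y K K1 (run w m ng d rels steps S) :=
  fl_inv _ _ (fun s st hs => stp_sound hm hrel hK1 s st hs) steps S h

theorem init_good (hm : m = 2 ^ w - 1) (hw : w ≤ m) {ng d d' : ℕ} :
    Good w m Y (Kd Y ng d') (Kd Y ng d) (initS w ng d') := by
  have hpos : 0 < 2 ^ w := by positivity
  have hcap : w * 1 < 2 ^ w := by omega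
  refine ⟨fun _ => 1, ⟨le_refl _, hcap, rfl, fun _ _ _ => Subgroup.one_mem _, ?_⟩⟩
  intro l
  show TInv w m Y (Kd Y ng d') (fun _ => 1) 1 l (nth 0 (initS w ng d').2 l)
  rw [nth_eq_getD, initS]
  by_cases hl : l < 2 * ng
  · rw [List.getD_eq_getElem _ _ (by simpa using hl)]
    simp only [List.getElem_map, List.getElem_range]
    cases hc : Nat.ble (2 * d') l with
    | false => exact TInv.zero l
    | true =>
      rw [Nat.ble_eq] at hc
      simp only [cond_true, Nat.mul_eq]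
      apply (TInv.zero l).write hm hcap ⟨le_refl _, le_refl _⟩ ⟨le_refl _, le_refl _⟩ (rd_zero _ _)
      unfold Edge
      simpa using lt_mem_Kd Y hc hl
  · rw [List.getD_eq_default _ _ (by simpa using hl)]
    exact TInv.zero l

theorem colOK_spec {T : ℕ} : ∀ {n : ℕ}, colOK w m T n = true → ∀ a, 1 ≤ a → a ≤ n → rd m T (w * a) ≠ 0 := by
  intro n
  induction n with
  | zero => intro _ a h1 h2; omega
  | succ n ih =>
    intro h a h1 h2
    have h' : nz (rd m T (Nat.mul w (Nat.succ n))) false (colOK w m T n) = true := h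
    rw [nz_eq] at h'
    split_ifs at h' with h0
    rcases Nat.lt_or_ge n a with h3 | h3
    · have : a = n + 1 := by omega
      rw [this]; exact h0
    · exact ih h' a h1 h3

theorem fullOK_spec {ng d : ℕ} {S : ℕ × List ℕ} (h : fullOK w m ng d S = true) {l a : ℕ} (h1 : 2 * d ≤ l)
    (h2 : l < 2 * ng) (ha1 : 1 ≤ a) (ha2 : a ≤ S.1) : rd m (nth 0 S.2 l) (w * a) ≠ 0 := by
  have h3 := alN_spec h l h2
  rw [Bool.or_eq_true, Nat.blt_eq] at h3
  exact colOK_spec (h3.resolve_left (by omega)) a ha1 ha2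

/-- **The covering theorem.** -/
theorem cover {ng d d' : ℕ} {S : ℕ × List ℕ} (h : Good w m Y (Kd Y ng d') (Kd Y ng d) S)
    (hfull : fullOK w m ng d S = true) :
    ∃ c : ℕ → Γ, ∀ g ∈ Kd Y ng d, ∃ a, 1 ≤ a ∧ a ≤ S.1 ∧ (c a)⁻¹ * g ∈ Kd Y ng d' := by
  obtain ⟨c, I⟩ := h
  refine ⟨c, ?_⟩
  let U : Set Γ := {g | ∃ a, 1 ≤ a ∧ a ≤ S.1 ∧ (c a)⁻¹ * g ∈ Kd Y ng d'}
  have hlet : ∀ l, 2 * d ≤ l → l < 2 * ng → ∀ u ∈ U, lt Y l * u ∈ U := by
    rintro l h1 h2 u ⟨a, ha1, ha2, hu⟩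
    obtain ⟨_, b, hb1, hb2, _, hb4⟩ := I.tab l a (fullOK_spec hfull h1 h2 ha1 ha2)
    refine ⟨b, hb1, hb2, ?_⟩
    have := (Kd Y ng d').mul_mem hb4 hu
    convert this using 1
    group
  have hall : ∀ g ∈ Kd Y ng d, (∀ u ∈ U, g * u ∈ U) ∧ (∀ u ∈ U, g⁻¹ * u ∈ U) := by
    intro g hg
    induction hg using Subgroup.closure_induction with
    | mem x hx =>
      obtain ⟨k, h1, h2, rfl⟩ := hx
      constructor
      · intro u hu
        have := hlet (2 * k) (by omega) (by omega) u hu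
        rwa [lt_even] at this
      · intro u hu
        have := hlet (2 * k + 1) (by omega) (by omega) u hu
        rwa [lt_odd] at this
    | one => simp
    | mul x y _ _ hx hy =>
      constructor
      · intro u hu; rw [mul_assoc]; exact hx.1 _ (hy.1 _ hu)
      · intro u hu; rw [mul_inv_rev, mul_assoc]; exact hy.2 _ (hx.2 _ hu)
    | inv x _ hx => exact ⟨hx.2, by simpa using hx.1⟩
  intro g hg
  have h1 : (1 : Γ) ∈ U := ⟨1, le_refl _, I.one_le, by rw [I.c1]; simp [Subgroup.one_mem]⟩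
  have := (hall g hg).1 1 h1
  rwa [mul_one] at this

/-- **The upper bound of a level.** -/
theorem card_le {ng d d' n : ℕ} {S : ℕ × List ℕ} (h : Good w m Y (Kd Y ng d') (Kd Y ng d) S)
    (hfin : finOK w m ng d n S = true) [Finite (Kd Y ng d')] :
    Finite (Kd Y ng d) ∧ Nat.card (Kd Y ng d) ≤ n * Nat.card (Kd Y ng d') := by
  rw [finOK, Bool.and_eq_true, Nat.ble_eq] at hfin
  obtain ⟨c, hc⟩ := cover h hfin.1
  choose! f hf using hc
  let F : Kd Y ng d → Fin n × Kd Y ng d' := fun g =>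
    (⟨f g.1 - 1, by have := hf g.1 g.2; omega⟩, ⟨(c (f g.1))⁻¹ * g.1, (hf g.1 g.2).2.2⟩)
  have hF : Function.Injective F := by
    intro g g' e
    have e1 : f g.1 - 1 = f g'.1 - 1 := congrArg (fun z => (z.1 : ℕ)) e
    have e2 : (c (f g.1))⁻¹ * g.1 = (c (f g'.1))⁻¹ * g'.1 := congrArg (fun z => (z.2 : Γ)) e
    have e3 : f g.1 = f g'.1 := by
      have := (hf g.1 g.2).1
      have := (hf g'.1 g'.2).1
      omega
    rw [e3] at e2
    exact Subtype.ext (mul_left_cancel e2)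
  refine ⟨Finite.of_injective F hF, ?_⟩
  have := Nat.card_le_card_of_injective F hF
  rwa [Nat.card_prod, Nat.card_fin] at this

theorem parOK_spec {d d' : ℕ} {rels : List (List ℕ)} (h : parOK w m d d' rels = true) :
    m = 2 ^ w - 1 ∧ w ≤ m ∧ 1 ≤ w ∧ d ≤ d' ∧ ∀ W ∈ rels, 2 ≤ W.length := by
  simp only [parOK, Bool.and_eq_true, Nat.beq_eq, Nat.ble_eq, List.all_eq_true, Nat.pow_eq,
    Nat.succ_eq_add_one] at h
  obtain ⟨⟨⟨⟨h1, h2⟩, h3⟩, h4⟩, h5⟩ := h
  exact ⟨by omega, h2, h3, h4, h5⟩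

/-- the upper bound of a level from a certificate which is evaluated in one piece. -/
theorem level_le {ng d d' n : ℕ} {rels : List (List ℕ)} (hrel : ∀ W ∈ rels, ev Y W = 1)
    (hp : parOK w m d d' rels = true) {steps : List (ℕ × ℕ × List ℕ)}
    (h : finOK w m ng d n (run w m ng d rels steps (initS w ng d')) = true) [Finite (Kd Y ng d')] :
    Finite (Kd Y ng d) ∧ Nat.card (Kd Y ng d) ≤ n * Nat.card (Kd Y ng d') := by
  obtain ⟨hm, hw, _, _, hlen⟩ := parOK_spec hp
  exact card_le (run_sound hm (fun W hW => ⟨hrel W hW, hlen W hW⟩) (fun l h1 h2 => lt_mem_Kd Y h1 h2) steps _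
    (init_good hm hw)) h

end sound

end Cfsg.Agent.Lib.Helper88.TC
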