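import Cfsg.Agent.Lib.Helper88.TCSimple

/-!
Simplicity of a permutation group given by networks, from kernel-checkable data.
-/

set_option autoImplicit false

namespace Cfsg.Agent.Lib.Helper88.TC

variable {N : ℕ} {nets : List (List (ℕ × ℕ))}

/-- the set of all the points. -/
def fullN (N : ℕ) : ℕ := Nat.pred (Nat.pow 2 N)

/-- the letters of a word are admissible. -/
def letOK (ng : ℕ) (W : List ℕ) : Bool := W.all fun l => Nat.blt l (2 * ng)

theorem letOK_spec {Γ : Type*} [Group Γ] (Y : List Γ) {ng : ℕ} {W : List ℕ} (h : letOK ng W = true) :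
    ev Y W ∈ Kd Y ng 0 := by
  apply ev_mem_Kd
  intro l hl
  rw [letOK, List.all_eq_true] at h
  have := h l hl
  rw [Nat.blt_eq] at this
  exact ⟨by omega, this⟩

/-- data for primitivity: a word, the image of the base point, indices for the orbit of this image under the stabiliser,
indices for the orbit of the base point under the group generated by the stabiliser and the word. -/
abbrev PD := List (List ℕ × ℕ × List ℕ × List ℕ)

noncomputable def primOK (nets : List (List (ℕ × ℕ))) (N ng d1 b : ℕ) (pd : PD) : Bool :=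
  al (fun e => mapsOK nets e.1 b e.2.1 && Nat.blt e.2.1 N && letOK ng e.1 &&
    Nat.beq (orb nets (e.1 :: lets ng d1) e.2.2.2 b) (fullN N)) pd &&
  Nat.beq (fl (fun acc e => Nat.lor acc (orb nets (lets ng d1) e.2.2.1 e.2.1)) pd (Nat.pow 2 b)) (fullN N)

theorem fl_lor_testBit {α : Type} (F : α → ℕ) (l : List α) : ∀ (A y : ℕ),
    (fl (fun acc e => Nat.lor acc (F e)) l A).testBit y = true → A.testBit y = true ∨ ∃ e ∈ l, (F e).testBit y = true := by
  induction l with
  | nil => intro A y h; exact Or.inl h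
  | cons e r ih =>
    intro A y h
    rw [fl_cons] at h
    rcases ih _ y h with h1 | ⟨e', he', h1⟩
    · change (A ||| F e).testBit y = true at h1
      rw [Nat.testBit_or, Bool.or_eq_true] at h1
      rcases h1 with h1 | h1
      · exact Or.inl h1
      · exact Or.inr ⟨e, List.mem_cons_self, h1⟩
    · exact Or.inr ⟨e', List.mem_cons_of_mem _ he', h1⟩

theorem prim_perm (h : netsOK N nets = true) {ng d1 : ℕ} {b : Fin N} (hfix : fixOK nets ng d1 b = true)
    {is : List ℕ} (htr : Nat.beq (orb nets (lets ng 0) is b) (fullN N) = true) {pd : PD}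
    (hp : primOK nets N ng d1 b pd = true) :
    MulAction.IsPreprimitive (Kd (gens N nets) ng 0) (Fin N) := by
  set Y := gens N nets with hY
  rw [primOK, Bool.and_eq_true] at hp
  obtain ⟨hp1, hp2⟩ := hp
  have hp1' := al_spec hp1
  apply prim_of (Kd Y ng 0) b (trans_of h _ (lets_spec Y ng 0) htr) (Kd Y ng d1) (Kd_mono Y ng (Nat.zero_le _))
    (fixOK_spec h hfix) (ι := {e // e ∈ pd}) (fun e => ev Y e.1.1)
    (T := fun e => Subgroup.closure {g | ∃ W ∈ e.1.1 :: lets ng d1, g = ev Y W})
  · intro e
    have := hp1' e.1 e.2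
    simp only [Bool.and_eq_true] at this
    exact letOK_spec Y this.1.2
  · intro e St hK hg
    rw [Subgroup.closure_le]
    rintro g ⟨W, hW, rfl⟩
    rcases List.mem_cons.1 hW with h1 | h1
    · rw [h1]; exact hg
    · exact hK (lets_spec Y ng d1 W h1)
  · intro y hy
    rw [Nat.beq_eq] at hp2
    have h1 : (fullN N).testBit y = true := by
      show (2 ^ N - 1).testBit y = true
      rw [Nat.testBit_two_pow_sub_one]
      exact decide_eq_true y.2
    rw [← hp2] at h1
    rcases fl_lor_testBit _ pd _ _ h1 with h2 | ⟨e, he, h2⟩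
    · exfalso
      change (2 ^ (b : ℕ)).testBit y = true at h2
      rw [Nat.testBit_two_pow, decide_eq_true_eq] at h2
      exact hy (Fin.ext h2.symm)
    · have h3 := hp1' e he
      simp only [Bool.and_eq_true, Nat.blt_eq] at h3
      obtain ⟨k, hk, e1⟩ := orb_spec h (Kd Y ng d1) (lets_spec Y ng d1) e.2.2.1 ⟨e.2.1, h3.1.1.2⟩ y h2
      refine ⟨⟨e, he⟩, k, hk, ?_⟩
      have e2 : ev Y e.1 b = ⟨e.2.1, h3.1.1.2⟩ := by
        apply Fin.ext
        rw [ev_apply h]
        exact mapsOK_spec h h3.1.1.1
      show k (ev Y e.1 b) = y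
      rw [e2]
      exact Fin.ext e1
  · intro e x
    have h3 := hp1' e.1 e.2
    simp only [Bool.and_eq_true] at h3
    exact trans_of h (Subgroup.closure {g | ∃ W ∈ e.1.1 :: lets ng d1, g = ev Y W})
      (fun W hW => Subgroup.subset_closure ⟨W, hW, rfl⟩) h3.2 x

/-- the power of a word. -/
def rep (p : ℕ) (Z : List ℕ) : List ℕ := (List.replicate p Z).flatten

theorem ev_rep {Γ : Type*} [Group Γ] (Y : List Γ) (Z : List ℕ) (p : ℕ) : ev Y (rep p Z) = ev Y Z ^ p := by
  induction p with
  | zero => simp [rep, ev]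
  | succ n ih =>
    have e : rep (n + 1) Z = Z ++ rep n Z := by simp [rep, List.replicate_succ]
    rw [e, ev_append, ih, pow_succ]

/-- every generator is a product of two elements whose `p`-th power is trivial. -/
noncomputable def simpOK (nets : List (List (ℕ × ℕ))) (Bs : List ℕ) (ng p : ℕ) (Zs : List (List ℕ)) : Bool :=
  alN (fun k => relOK nets Bs (rep p (nth [] Zs k)) && relOK nets Bs (rep p (nth [] Zs k ++ [2 * k])) &&
    letOK ng (nth [] Zs k)) ng

/-- **Simplicity of a permutation group.** -/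
theorem simple_perm (h : netsOK N nets = true) {Bs : List ℕ} (hs : sepOK N Bs = true) {ng d1 : ℕ} {b : Fin N}
    (hfix : fixOK nets ng d1 b = true) {is : List ℕ}
    (htr : Nat.beq (orb nets (lets ng 0) is b) (fullN N) = true) {pd : PD}
    (hp : primOK nets N ng d1 b pd = true) {p : ℕ} [Fact p.Prime] (hpN : p ∣ N)
    (hp2 : ¬ p ^ 2 ∣ Nat.card (Kd (gens N nets) ng 0)) (hnt : 1 < Nat.card (Kd (gens N nets) ng 0))
    {Zs : List (List ℕ)} (hz : simpOK nets Bs ng p Zs = true) :
    IsSimpleGroup (Kd (gens N nets) ng 0) := by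
  have i1 : MulAction.IsPreprimitive (Kd (gens N nets) ng 0) (Fin N) := prim_perm h hfix htr hp
  have i2 : Nontrivial (Kd (gens N nets) ng 0) := Finite.one_lt_card_iff_nontrivial.1 hnt
  have i3 : FaithfulSMul (Kd (gens N nets) ng 0) (Fin N) := ⟨fun {g g'} e => Subtype.ext (Equiv.ext e)⟩
  have hpX : p ∣ Nat.card (Fin N) := by rw [Nat.card_fin]; exact hpN
  refine simple_of_prim (X := Fin N) hpX hp2 _
    (Subgroup.closure_closure_coe_preimage (k := {g | ∃ k, 0 ≤ k ∧ k < ng ∧ g = (gens N nets).getD k 1})) ?_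
  rintro ⟨s, hsH⟩ ⟨k, _, hk, rfl⟩
  have h1 := alN_spec hz k hk
  simp only [Bool.and_eq_true] at h1
  obtain ⟨⟨h2, h3⟩, h4⟩ := h1
  refine ⟨⟨ev (gens N nets) (nth [] Zs k), letOK_spec _ h4⟩, ?_, ?_⟩
  · apply Subtype.ext
    have := relOK_spec h hs h2
    rw [ev_rep] at this
    exact this
  · apply Subtype.ext
    have := relOK_spec h hs h3
    rw [ev_rep, ev_append, ev, ev, one_mul, lt_even] at this
    exact this

/-- the order of a level from a certificate which is evaluated in one piece. -/
theorem level_eq' (h : netsOK N nets = true) {ng d d' n w m : ℕ} {rels : List (List ℕ)}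
    (hrel : ∀ W ∈ rels, ev (gens N nets) W = 1) (hp : parOK w m d d' rels = true)
    {steps : List (ℕ × ℕ × List ℕ)}
    (hfin : finOK w m ng d n (run w m ng d rels steps (initS w ng d')) = true) {b : Fin N}
    (hf : fixOK nets ng d' b = true) {is : List ℕ}
    (ho : Nat.ble n (cnt N (orb nets (lets ng d) is b)) = true) :
    Nat.card (Kd (gens N nets) ng d) = n * Nat.card (Kd (gens N nets) ng d') := by
  obtain ⟨hm, hw, _, _, hlen⟩ := parOK_spec hp
  exact level_eq h hp (run_sound hm (fun W hW => ⟨hrel W hW, hlen W hW⟩) (fun l h1 h2 => lt_mem_Kd _ h1 h2) steps _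
    (init_good hm hw)) hfin hf ho

theorem card_Kd_self {Γ : Type*} [Group Γ] (Y : List Γ) (ng : ℕ) : Nat.card (Kd Y ng ng) = 1 := by
  rw [Kd_self]; exact Subgroup.card_bot

/-- the order of a point stabiliser in a transitive group. -/
theorem stab_card (H : Subgroup (Equiv.Perm (Fin N))) [MulAction.IsPretransitive H (Fin N)] (x : Fin N) :
    N * Nat.card (MulAction.stabilizer H x) = Nat.card H := by
  rw [← (MulAction.stabilizer H x).index_mul_card, MulAction.index_stabilizer, MulAction.orbit_eq_univ,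
    Set.ncard_univ, Nat.card_fin]

end Cfsg.Agent.Lib.Helper88.TC
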