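import Cfsg.Agent.Lib.Helper88.TCChain

/-!
Primitivity and simplicity of permutation groups from kernel-checkable data.
-/

set_option autoImplicit false
open scoped Pointwise

namespace Cfsg.Agent.Lib.Helper88.TC

/-- elements of prime order `p` are conjugate to powers of each other if `p ^ 2` does not divide the order. -/
theorem conj_pow_of_prime {H : Type*} [Group H] [Finite H] {p : ℕ} [Fact p.Prime]
    (hp2 : ¬ p ^ 2 ∣ Nat.card H) {a b : H} (ha : a ^ p = 1) (ha1 : a ≠ 1) (hb : b ^ p = 1) (hb1 : b ≠ 1) :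
    ∃ g : H, ∃ k : ℕ, g * b * g⁻¹ = a ^ k := by
  have hp : p.Prime := Fact.out
  have key : ∀ x : H, x ^ p = 1 → x ≠ 1 → ∃ P : Sylow p H, (P : Subgroup H) = Subgroup.zpowers x := by
    intro x hx hx1
    have hord : orderOf x = p := orderOf_eq_prime hx hx1
    have hcard : Nat.card (Subgroup.zpowers x) = p := by rw [Nat.card_zpowers, hord]
    have hpg : IsPGroup p (Subgroup.zpowers x) := IsPGroup.of_card (n := 1) (by rw [hcard, pow_one])
    have hidx : ¬ p ∣ (Subgroup.zpowers x).index := by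
      intro hd
      apply hp2
      rw [← (Subgroup.zpowers x).card_mul_index, hcard, pow_two]
      exact Nat.mul_dvd_mul_left p hd
    exact ⟨hpg.toSylow hidx, rfl⟩
  obtain ⟨P, hP⟩ := key a ha ha1
  obtain ⟨Q, hQ⟩ := key b hb hb1
  obtain ⟨g, hg⟩ := MulAction.exists_smul_eq H Q P
  have h1 : g * b * g⁻¹ ∈ (P : Subgroup H) := by
    rw [← hg, Sylow.coe_subgroup_smul, Subgroup.mem_pointwise_smul_iff_inv_smul_mem, hQ]
    have : (MulAut.conj g)⁻¹ • (g * b * g⁻¹) = b := by
      simp [MulAut.smul_def, mul_assoc]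
    rw [this]
    exact Subgroup.mem_zpowers b
  rw [hP] at h1
  obtain ⟨k, hk⟩ := (mem_powers_iff_mem_zpowers (x := a)).2 h1
  exact ⟨g, k, hk.symm⟩

/-- **A criterion for simplicity**: a faithful primitive action on a set whose cardinality is divisible by a prime `p`
with `p ^ 2` not dividing the order, and generators which are products of two elements of order `p`. -/
theorem simple_of_prim {G X : Type*} [Group G] [Finite G] [Nontrivial G] [MulAction G X] [Finite X]
    [FaithfulSMul G X] [MulAction.IsPreprimitive G X] {p : ℕ} [Fact p.Prime] (hpX : p ∣ Nat.card X)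
    (hp2 : ¬ p ^ 2 ∣ Nat.card G) (S : Set G) (hS : Subgroup.closure S = ⊤)
    (h : ∀ s ∈ S, ∃ z : G, z ^ p = 1 ∧ (s * z) ^ p = 1) : IsSimpleGroup G := by
  refine ⟨fun M hM => ?_⟩
  by_cases hbot : M = ⊥
  · exact Or.inl hbot
  right
  obtain ⟨m, hm, hm1⟩ : ∃ m ∈ M, m ≠ 1 := by
    obtain ⟨a, ha⟩ := Subgroup.ne_bot_iff_exists_ne_one.1 hbot
    exact ⟨a.1, a.2, fun e => ha (Subtype.ext e)⟩
  have hfix : MulAction.fixedPoints M X ≠ Set.univ := by
    intro e
    apply hm1
    apply FaithfulSMul.eq_of_smul_eq_smul (α := X)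
    intro x
    have hx : x ∈ MulAction.fixedPoints M X := by rw [e]; exact Set.mem_univ x
    rw [one_smul]
    exact hx ⟨m, hm⟩
  have htr : MulAction.IsPretransitive M X := MulAction.IsQuasiPreprimitive.isPretransitive_of_normal hfix
  have hne : Nonempty X := by
    by_contra hX
    rw [not_nonempty_iff] at hX
    apply hfix
    ext x
    exact (hX.false x).elim
  obtain ⟨x⟩ := hne
  have hdvd : p ∣ Nat.card M := by
    have h1 : (MulAction.stabilizer M x).index = Nat.card X := by
      rw [MulAction.index_stabilizer, MulAction.orbit_eq_univ, Set.ncard_univ]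
    exact (hpX.trans (h1 ▸ (MulAction.stabilizer M x).index_dvd_card))
  obtain ⟨a, ha⟩ := exists_prime_orderOf_dvd_card' p hdvd
  have hp : p.Prime := Fact.out
  have ha1 : (a : G) ^ p = 1 := by
    have := pow_orderOf_eq_one a
    rw [ha] at this
    exact congrArg Subtype.val this
  have ha2 : (a : G) ≠ 1 := by
    intro e
    have : a = 1 := Subtype.ext e
    rw [this, orderOf_one] at ha
    exact hp.one_lt.ne ha
  have key : ∀ b : G, b ^ p = 1 → b ∈ M := by
    intro b hb
    by_cases hb1 : b = 1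
    · rw [hb1]; exact M.one_mem
    obtain ⟨g, k, e⟩ := conj_pow_of_prime hp2 ha1 ha2 hb hb1
    have h1 : g * b * g⁻¹ ∈ M := by rw [e]; exact M.pow_mem a.2 k
    have h2 := hM.conj_mem _ h1 g⁻¹
    simpa [mul_assoc] using h2
  rw [eq_top_iff, ← hS, Subgroup.closure_le]
  intro s hs
  obtain ⟨z, hz1, hz2⟩ := h s hs
  have := M.mul_mem (key _ hz2) (M.inv_mem (key _ hz1))
  simpa using this

/-- **A criterion for primitivity** of a subgroup `H` of a symmetric group: `K` fixes the point `a`, every other point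
lies in the `K`-orbit of one of the points `g i a`, and `K` together with `g i` generates a transitive group. -/
theorem prim_of {X : Type*} (H : Subgroup (Equiv.Perm X)) (a : X) (htr : ∀ x, ∃ g ∈ H, g a = x)
    (K : Subgroup (Equiv.Perm X)) (hKH : K ≤ H) (hK : ∀ k ∈ K, k a = a) {ι : Type*} (g : ι → Equiv.Perm X)
    (hg : ∀ i, g i ∈ H) (T : ι → Subgroup (Equiv.Perm X))
    (hT : ∀ i, ∀ St : Subgroup (Equiv.Perm X), K ≤ St → g i ∈ St → T i ≤ St)
    (hcov : ∀ y, y ≠ a → ∃ i, ∃ k ∈ K, k (g i a) = y) (htrT : ∀ i x, ∃ s ∈ T i, s a = x) :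
    MulAction.IsPreprimitive H X := by
  have : MulAction.IsPretransitive H X := by
    refine ⟨fun x y => ?_⟩
    obtain ⟨u, hu, eu⟩ := htr x
    obtain ⟨v, hv, ev'⟩ := htr y
    refine ⟨⟨v * u⁻¹, H.mul_mem hv (H.inv_mem hu)⟩, ?_⟩
    show (v * u⁻¹) x = y
    rw [← eu, ← ev']
    simp
  apply MulAction.IsPreprimitive.of_isTrivialBlock_base a
  intro B haB hB
  rw [MulAction.isBlock_iff_smul_eq_of_mem] at hB
  by_cases hsub : B.Subsingleton
  · exact Or.inl hsub
  right
  -- the stabiliser of the block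
  let St : Subgroup (Equiv.Perm X) := H ⊓ MulAction.stabilizer (Equiv.Perm X) B
  have hmem : ∀ u ∈ H, ∀ x ∈ B, u x ∈ B → u ∈ St := by
    intro u hu x hx hux
    refine ⟨hu, ?_⟩
    have := hB (g := ⟨u, hu⟩) hx hux
    exact this
  have hKSt : K ≤ St := fun k hk => hmem k (hKH hk) a haB (by rw [hK k hk]; exact haB)
  obtain ⟨y, hy, hya⟩ : ∃ y ∈ B, y ≠ a := by
    by_contra hcon
    push Not at hcon
    exact hsub (fun u hu v hv => by rw [hcon u hu, hcon v hv])
  obtain ⟨i, k, hk, e⟩ := hcov y hya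
  have hgi : g i a ∈ B := by
    have h1 : k⁻¹ ∈ St := St.inv_mem (hKSt hk)
    have h2 : k⁻¹ • B = B := h1.2
    have h3 : k⁻¹ y ∈ k⁻¹ • B := Set.smul_mem_smul_set hy
    rw [h2, ← e] at h3
    simpa using h3
  have hTSt := hT i St hKSt (hmem (g i) (hg i) a haB hgi)
  ext x
  simp only [Set.mem_univ, iff_true]
  obtain ⟨s, hs, e⟩ := htrT i x
  have h2 : s • B = B := (hTSt hs).2
  rw [← h2, ← e]
  exact Set.smul_mem_smul_set haB

end Cfsg.Agent.Lib.Helper88.TC
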