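import Mathlib

/-!
Words in a list of group elements.  The letter `2 k` is the generator number `k`, the letter `2 k + 1` its inverse, and
the head of a word is applied first.  Moreover some recursor-based list functions which the kernel evaluates quickly.
-/

set_option autoImplicit false

namespace Cfsg.Agent.Lib.Helper88.TC

section words
variable {Γ : Type*} [Group Γ]

/-- the value of a letter. -/
def lt (Y : List Γ) (l : ℕ) : Γ := if l % 2 = 0 then Y.getD (l / 2) 1 else (Y.getD (l / 2) 1)⁻¹

/-- the value of a word (the head is the rightmost factor). -/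
def ev (Y : List Γ) : List ℕ → Γ
  | [] => 1
  | l :: r => ev Y r * lt Y l

theorem lt_even (Y : List Γ) (k : ℕ) : lt Y (2 * k) = Y.getD k 1 := by
  have h1 : 2 * k % 2 = 0 := by omega
  have h2 : 2 * k / 2 = k := by omega
  rw [lt, if_pos h1, h2]

theorem lt_odd (Y : List Γ) (k : ℕ) : lt Y (2 * k + 1) = (Y.getD k 1)⁻¹ := by
  have h1 : ¬ (2 * k + 1) % 2 = 0 := by omega
  have h2 : (2 * k + 1) / 2 = k := by omega
  rw [lt, if_neg h1, h2]

theorem ev_append (Y : List Γ) (a b : List ℕ) : ev Y (a ++ b) = ev Y b * ev Y a := by
  induction a with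
  | nil => simp [ev]
  | cons l r ih => rw [List.cons_append, ev, ev, ih, mul_assoc]

/-- the subgroup generated by the generators with numbers from `d` on. -/
def Kd (Y : List Γ) (ng d : ℕ) : Subgroup Γ := Subgroup.closure {g | ∃ k, d ≤ k ∧ k < ng ∧ g = Y.getD k 1}

theorem getD_mem_Kd (Y : List Γ) {ng d k : ℕ} (h1 : d ≤ k) (h2 : k < ng) : Y.getD k 1 ∈ Kd Y ng d :=
  Subgroup.subset_closure ⟨k, h1, h2, rfl⟩

theorem lt_mem_Kd (Y : List Γ) {ng d l : ℕ} (h1 : 2 * d ≤ l) (h2 : l < 2 * ng) : lt Y l ∈ Kd Y ng d := by
  rcases Nat.even_or_odd' l with ⟨k, rfl | rfl⟩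
  · rw [lt_even]; exact getD_mem_Kd Y (by omega) (by omega)
  · rw [lt_odd]; exact (Kd Y ng d).inv_mem (getD_mem_Kd Y (by omega) (by omega))

theorem Kd_mono (Y : List Γ) (ng : ℕ) {d d' : ℕ} (h : d ≤ d') : Kd Y ng d' ≤ Kd Y ng d := by
  apply Subgroup.closure_mono
  rintro g ⟨k, h1, h2, rfl⟩
  exact ⟨k, h.trans h1, h2, rfl⟩

theorem Kd_self (Y : List Γ) (ng : ℕ) : Kd Y ng ng = ⊥ := by
  rw [Kd, Subgroup.closure_eq_bot_iff]
  rintro g ⟨k, h1, h2, rfl⟩
  omega

theorem ev_mem_Kd (Y : List Γ) {ng d : ℕ} (W : List ℕ) (h : ∀ l ∈ W, 2 * d ≤ l ∧ l < 2 * ng) : ev Y W ∈ Kd Y ng d := by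
  induction W with
  | nil => exact Subgroup.one_mem _
  | cons l r ih =>
    rw [ev]
    exact Subgroup.mul_mem _ (ih fun l' hl' => h l' (List.mem_cons_of_mem _ hl'))
      (lt_mem_Kd Y (h l List.mem_cons_self).1 (h l List.mem_cons_self).2)

end words

/-! ### functions for the kernel -/

/-- zero test. -/
noncomputable def nz {α : Type} (x : ℕ) (a b : α) : α := Nat.rec a (fun _ _ => b) x

theorem nz_zero {α : Type} (a b : α) : nz 0 a b = a := rfl

theorem nz_ne {α : Type} {x : ℕ} (h : x ≠ 0) (a b : α) : nz x a b = b := by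
  cases x with
  | zero => exact absurd rfl h
  | succ n => rfl

theorem nz_eq {α : Type} (x : ℕ) (a b : α) : nz x a b = if x = 0 then a else b := by
  by_cases h : x = 0
  · subst h; rfl
  · rw [nz_ne h, if_neg h]

/-- evaluate the number first. -/
noncomputable def frc {α : Type} (x : ℕ) (k : ℕ → α) : α := Nat.rec (k x) (fun _ _ => k x) x

theorem frc_eq {α : Type} (x : ℕ) (k : ℕ → α) : frc x k = k x := by
  unfold frc
  cases x <;> rfl

/-- left fold. -/
noncomputable def fl {α β : Type} (f : β → α → β) (l : List α) : β → β :=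
  List.rec (fun s => s) (fun a _ ih s => ih (f s a)) l

theorem fl_nil {α β : Type} (f : β → α → β) (s : β) : fl f [] s = s := rfl

theorem fl_cons {α β : Type} (f : β → α → β) (a : α) (l : List α) (s : β) : fl f (a :: l) s = fl f l (f s a) := rfl

/-- an invariant of a left fold. -/
theorem fl_inv {α β : Type} (f : β → α → β) (P : β → Prop) (h : ∀ s a, P s → P (f s a)) (l : List α) :
    ∀ s, P s → P (fl f l s) := by
  induction l with
  | nil => intro s hs; exact hs
  | cons a r ih => intro s hs; rw [fl_cons]; exact ih _ (h s a hs)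

/-- the entry number `i` of a list (with default value). -/
noncomputable def nth {α : Type} (z : α) (l : List α) : ℕ → α :=
  List.rec (fun _ => z) (fun T _ ih i => Nat.rec T (fun j _ => ih j) i) l

theorem nth_nil {α : Type} (z : α) (i : ℕ) : nth z [] i = z := rfl
theorem nth_cons_zero {α : Type} (z T : α) (l : List α) : nth z (T :: l) 0 = T := rfl
theorem nth_cons_succ {α : Type} (z T : α) (l : List α) (i : ℕ) : nth z (T :: l) (i + 1) = nth z l i := rfl

theorem nth_eq_getD {α : Type} (z : α) (l : List α) : ∀ i, nth z l i = l.getD i z := by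
  induction l with
  | nil => intro i; simp [nth_nil]
  | cons T r ih =>
    intro i
    cases i with
    | zero => simp [nth_cons_zero]
    | succ j => simp [nth_cons_succ, ih]

theorem nth_mem_or {α : Type} (z : α) (l : List α) (i : ℕ) : nth z l i ∈ l ∨ nth z l i = z := by
  rw [nth_eq_getD]
  by_cases h : i < l.length
  · left; rw [List.getD_eq_getElem _ _ h]; exact List.getElem_mem h
  · right; exact List.getD_eq_default _ _ (not_lt.1 h)

/-- replace the entry number `i`. -/
noncomputable def upd {α : Type} (l : List α) (i : ℕ) (v : α) : List α :=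
  List.rec (motive := fun _ => ℕ → List α) (fun _ => [])
    (fun T tl ih i => Nat.rec (v :: tl) (fun j _ => T :: ih j) i) l i

theorem upd_nil {α : Type} (i : ℕ) (v : α) : upd [] i v = [] := rfl
theorem upd_cons_zero {α : Type} (T : α) (l : List α) (v : α) : upd (T :: l) 0 v = v :: l := rfl
theorem upd_cons_succ {α : Type} (T : α) (l : List α) (i : ℕ) (v : α) :
    upd (T :: l) (i + 1) v = T :: upd l i v := rfl

theorem nth_upd {α : Type} (z : α) (l : List α) : ∀ (i : ℕ) (v : α) (j : ℕ),
    nth z (upd l i v) j = nth z l j ∨ (j = i ∧ nth z (upd l i v) j = v) := by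
  induction l with
  | nil => intro i v j; left; rfl
  | cons T r ih =>
    intro i v j
    cases i with
    | zero =>
      cases j with
      | zero => right; exact ⟨rfl, rfl⟩
      | succ j => left; rfl
    | succ i =>
      cases j with
      | zero => left; rfl
      | succ j =>
        rw [upd_cons_succ, nth_cons_succ, nth_cons_succ]
        rcases ih i v j with h | ⟨h1, h2⟩
        · left; exact h
        · right; exact ⟨by rw [h1], h2⟩

/-- drop. -/
noncomputable def drp {α : Type} (l : List α) : ℕ → List α :=
  List.rec (fun _ => []) (fun T tl ih i => Nat.rec (T :: tl) (fun j _ => ih j) i) l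

theorem drp_eq {α : Type} (l : List α) : ∀ i, drp l i = l.drop i := by
  induction l with
  | nil => intro i; simp [drp]
  | cons T r ih =>
    intro i
    cases i with
    | zero => rfl
    | succ j => exact ih j

/-- take. -/
noncomputable def tk {α : Type} (l : List α) : ℕ → List α :=
  List.rec (fun _ => []) (fun T _ ih i => Nat.rec [] (fun j _ => T :: ih j) i) l

theorem tk_eq {α : Type} (l : List α) : ∀ i, tk l i = l.take i := by
  induction l with
  | nil => intro i; simp [tk]
  | cons T r ih =>
    intro i
    cases i with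
    | zero => rfl
    | succ j =>
      show T :: tk r j = _
      rw [ih j]; rfl

/-- map. -/
noncomputable def mp {α β : Type} (f : α → β) (l : List α) : List β :=
  List.rec [] (fun a _ ih => f a :: ih) l

theorem mp_eq {α β : Type} (f : α → β) (l : List α) : mp f l = l.map f := by
  induction l with
  | nil => rfl
  | cons a r ih =>
    show f a :: mp f r = _
    rw [ih]; rfl

/-- all. -/
noncomputable def al {α : Type} (f : α → Bool) (l : List α) : Bool :=
  List.rec true (fun a _ ih => Bool.rec false ih (f a)) l

theorem al_eq {α : Type} (f : α → Bool) (l : List α) : al f l = l.all f := by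
  induction l with
  | nil => rfl
  | cons a r ih =>
    have e : al f (a :: r) = Bool.rec (motive := fun _ => Bool) false (al f r) (f a) := rfl
    rw [e, ih, List.all_cons]
    cases f a <;> rfl

theorem al_spec {α : Type} {f : α → Bool} {l : List α} (h : al f l = true) : ∀ a ∈ l, f a = true := by
  rw [al_eq, List.all_eq_true] at h
  exact h

/-- a property of all the numbers below `n`. -/
noncomputable def alN (f : ℕ → Bool) : ℕ → Bool := Nat.rec true (fun i ih => Bool.rec false ih (f i))

theorem alN_spec {f : ℕ → Bool} : ∀ {n : ℕ}, alN f n = true → ∀ i < n, f i = true := by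
  intro n
  induction n with
  | zero => intro _ i hi; omega
  | succ n ih =>
    intro h i hi
    have h' : Bool.rec (motive := fun _ => Bool) false (alN f n) (f n) = true := h
    cases hf : f n with
    | false => rw [hf] at h'; exact Bool.noConfusion h'
    | true =>
      rw [hf] at h'
      rcases Nat.lt_succ_iff_lt_or_eq.1 hi with h1 | h1
      · exact ih h' i h1
      · rw [h1]; exact hf

end Cfsg.Agent.Lib.Helper88.TC
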